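import Mathlib
import Cfsg.Agent.Helper68.Basic
import Cfsg.Agent.Helper68.PiElt
import Cfsg.Agent.Helper68.Frob
import Cfsg.Agent.Helper68.Frobenius
import Cfsg.Agent.Helper68.PComp
import Cfsg.Agent.Helper68.Nilp

set_option autoImplicit false

namespace Cfsg.Agent.Helper68

open Subgroup
open scoped Pointwise

/-- all conjugacy classes have size `1` or `n` -/
def TwoClass (G : Type*) [Group G] (n : ℕ) : Prop :=
  ∀ x : G, (centralizer ({x} : Set G)).index = 1 ∨ (centralizer ({x} : Set G)).index = n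

theorem mem_center_iff_index {G : Type*} [Group G] (x : G) :
    x ∈ center G ↔ (centralizer ({x} : Set G)).index = 1 := by
  rw [index_eq_one, centralizer_eq_top_iff_subset, Set.singleton_subset_iff]
  rfl

theorem TwoClass.index_eq {G : Type*} [Group G] {n : ℕ} (h : TwoClass G n) {x : G}
    (hx : x ∉ center G) : (centralizer ({x} : Set G)).index = n := by
  rcases h x with h1 | h1
  · exact absurd ((mem_center_iff_index x).2 h1) hx
  · exact h1

/-- centralizers of non-central elements are not comparable -/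
theorem TwoClass.centralizer_eq {G : Type*} [Group G] [Finite G] {n : ℕ} (h : TwoClass G n)
    {x y : G} (hx : x ∉ center G) (hy : y ∉ center G)
    (hle : centralizer ({x} : Set G) ≤ centralizer ({y} : Set G)) :
    centralizer ({x} : Set G) = centralizer ({y} : Set G) := by
  apply Subgroup.eq_of_le_of_card_ge hle
  have h1 := (centralizer ({x} : Set G)).card_mul_index
  have h2 := (centralizer ({y} : Set G)).card_mul_index
  rw [h.index_eq hx] at h1
  rw [h.index_eq hy] at h2
  have hn : 0 < n := by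
    rcases Nat.eq_zero_or_pos n with h0 | h0
    · rw [h0, mul_zero] at h1
      exact absurd h1.symm Nat.card_pos.ne'
    · exact h0
  have : Nat.card (centralizer ({y} : Set G)) * n = Nat.card (centralizer ({x} : Set G)) * n :=
    h2.trans h1.symm
  exact (Nat.eq_of_mul_eq_mul_right hn this).le

theorem mem_zpowers_mul_of_coprime {G : Type*} [Group G] {x y : G} (hcomm : Commute x y)
    (hcop : (orderOf x).Coprime (orderOf y)) : x ∈ zpowers (x * y) := by
  have h1 : (x * y) ^ orderOf y = x ^ orderOf y := by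
    rw [hcomm.mul_pow, pow_orderOf_eq_one, mul_one]
  have h2 : x ∈ zpowers (x ^ orderOf y) := by
    rw [mem_zpowers_pow_iff]
    exact hcop.symm
  rw [← h1] at h2
  exact (zpowers_le.2 (pow_mem (mem_zpowers _) _)) h2

theorem centralizer_le_of_mem_zpowers {G : Type*} [Group G] {g x : G} (hx : x ∈ zpowers g) :
    centralizer ({g} : Set G) ≤ centralizer ({x} : Set G) := by
  intro w hw
  rw [mem_centralizer_singleton_iff] at hw ⊢
  obtain ⟨i, hi⟩ := mem_zpowers_iff.1 hx
  have h0 : Commute w g := hw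
  rw [← hi]
  exact (h0.zpow_right i).eq

/-- Fact 2: elements of coprime order commuting with a non-central element are central in its
centralizer -/
theorem TwoClass.centralizer_le_of_coprime {G : Type*} [Group G] [Finite G] {n : ℕ}
    (h : TwoClass G n) {x y : G} (hx : x ∉ center G) (hcomm : Commute x y)
    (hcop : (orderOf x).Coprime (orderOf y)) :
    centralizer ({x} : Set G) ≤ centralizer ({y} : Set G) := by
  have hx1 : x ∈ zpowers (x * y) := mem_zpowers_mul_of_coprime hcomm hcop
  have hy1 : y ∈ zpowers (x * y) := by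
    have e : x⁻¹ * (x * y) = y := by group
    have h0 := mul_mem (inv_mem hx1) (mem_zpowers (x * y))
    rwa [e] at h0
  have hxy : x * y ∉ center G := by
    intro hc
    apply hx
    obtain ⟨i, hi⟩ := mem_zpowers_iff.1 hx1
    rw [← hi]
    exact zpow_mem hc i
  have h1 := h.centralizer_eq hxy hx (centralizer_le_of_mem_zpowers hx1)
  rw [← h1]
  exact centralizer_le_of_mem_zpowers hy1

/-- arithmetic lemma used to exclude the case of abelian centralizers -/
theorem lt_of_prime_power_parts (n m : ℕ) (hn : 0 < n) (hm : 0 < m)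
    (h1 : ∀ p : ℕ, p.Prime → p ∣ n → p ∣ m)
    (h2 : ∃ q₁ q₂ : ℕ, q₁.Prime ∧ q₂.Prime ∧ q₁ ≠ q₂ ∧ q₁ ∣ m ∧ q₂ ∣ m)
    (h3 : ∀ p q : ℕ, p.Prime → q.Prime → p ≠ q → p ∣ n → q ∣ m →
      p ^ n.factorization p < q ^ m.factorization q) : n < m := by
  classical
  set T := m.primeFactors with hT
  have hnT : n.factorization.support ⊆ T := by
    rw [Nat.support_factorization]
    intro p hp
    rw [Nat.mem_primeFactors] at hp
    rw [hT, Nat.mem_primeFactors]
    exact ⟨hp.1, h1 p hp.1 hp.2.1, hm.ne'⟩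
  have hnprod : n = ∏ p ∈ T, p ^ n.factorization p := by
    conv_lhs => rw [← Nat.prod_factorization_pow_eq_self hn.ne']
    exact Finsupp.prod_of_support_subset _ hnT _ (fun i _ => pow_zero i)
  have hmprod : m = ∏ p ∈ T, p ^ m.factorization p := by
    conv_lhs => rw [← Nat.prod_factorization_pow_eq_self hm.ne']
    rw [Finsupp.prod, Nat.support_factorization]
  -- helper
  have hF : ∀ p q : ℕ, p.Prime → q.Prime → p ≠ q → q ∣ m →
      p ^ n.factorization p < q ^ m.factorization q := by
    intro p q hp hq hpq hqm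
    by_cases hpn : p ∣ n
    · exact h3 p q hp hq hpq hpn hqm
    · rw [Nat.factorization_eq_zero_of_not_dvd hpn, pow_zero]
      have hpos : 0 < m.factorization q := hq.factorization_pos_of_dvd hm.ne' hqm
      exact Nat.one_lt_pow hpos.ne' hq.one_lt
  obtain ⟨q₁, q₂, hq₁, hq₂, hq12, hq₁m, hq₂m⟩ := h2
  have hTne : T.Nonempty := ⟨q₁, by rw [hT, Nat.mem_primeFactors]; exact ⟨hq₁, hq₁m, hm.ne'⟩⟩
  obtain ⟨q₀, hq₀T, hq₀min⟩ := Finset.exists_min_image T (fun q => q ^ m.factorization q) hTne
  have hq₀ : q₀.Prime ∧ q₀ ∣ m := by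
    rw [hT, Nat.mem_primeFactors] at hq₀T
    exact ⟨hq₀T.1, hq₀T.2.1⟩
  obtain ⟨q', hq', hq'm, hq'ne⟩ : ∃ q' : ℕ, q'.Prime ∧ q' ∣ m ∧ q' ≠ q₀ := by
    by_cases hq : q₁ = q₀
    · exact ⟨q₂, hq₂, hq₂m, fun h => hq12 (hq.trans h.symm)⟩
    · exact ⟨q₁, hq₁, hq₁m, hq⟩
  have hq'T : q' ∈ T := by rw [hT, Nat.mem_primeFactors]; exact ⟨hq', hq'm, hm.ne'⟩
  set σ : Equiv.Perm ℕ := Equiv.swap q₀ q' with hσ
  have hσT : {a | σ a ≠ a} ⊆ (T : Set ℕ) := by
    intro a ha
    have ha : σ a ≠ a := ha
    by_cases ha0 : a = q₀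
    · rw [ha0]; exact hq₀T
    · by_cases ha1 : a = q'
      · rw [ha1]; exact hq'T
      · exact absurd (Equiv.swap_apply_of_ne_of_ne ha0 ha1) ha
  have hmprod' : m = ∏ p ∈ T, (σ p) ^ m.factorization (σ p) := by
    rw [Equiv.Perm.prod_comp σ T (fun q => q ^ m.factorization q) hσT]
    exact hmprod
  rw [hnprod]
  conv_rhs => rw [hmprod']
  apply Finset.prod_lt_prod
  · intro p hp
    rw [hT, Nat.mem_primeFactors] at hp
    exact pow_pos hp.1.pos _
  · intro p hp
    have hp' : p.Prime ∧ p ∣ m := by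
      rw [hT, Nat.mem_primeFactors] at hp
      exact ⟨hp.1, hp.2.1⟩
    by_cases ha0 : p = q₀
    · rw [ha0, hσ, Equiv.swap_apply_left]
      exact (hF q₀ q' hq₀.1 hq' hq'ne.symm hq'm).le
    · by_cases ha1 : p = q'
      · rw [ha1, hσ, Equiv.swap_apply_right]
        exact (hF q' q₀ hq' hq₀.1 hq'ne hq₀.2).le
      · rw [hσ, Equiv.swap_apply_of_ne_of_ne ha0 ha1]
        exact (hF p q₀ hp'.1 hq₀.1 ha0 hq₀.2).le.trans (hq₀min p hp)
  · refine ⟨q₀, hq₀T, ?_⟩
    rw [hσ, Equiv.swap_apply_left]
    exact hF q₀ q' hq₀.1 hq' hq'ne.symm hq'm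

theorem TwoClass.pos {G : Type*} [Group G] [Finite G] {n : ℕ} (h : TwoClass G n) {x : G}
    (hx : x ∉ center G) : 0 < n := by
  have h1 := h.index_eq hx
  have h0 : (centralizer ({x} : Set G)).index ≠ 0 := index_ne_zero_of_finite
  omega

/-- type II: if all `p'`-elements of the centralizer of a non-central element are central, then
all `p'`-elements of `G` are central -/
theorem TwoClass.central_of_typeII {G : Type*} [Group G] [Finite G] {n : ℕ} (h : TwoClass G n)
    (p : ℕ) [Fact p.Prime] {x : G} (hx : x ∉ center G)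
    (hII : ∀ y ∈ centralizer ({x} : Set G), ¬ p ∣ orderOf y → y ∈ center G) :
    ∀ y : G, ¬ p ∣ orderOf y → y ∈ center G := by
  have hp : p.Prime := Fact.out
  set C := centralizer ({x} : Set G) with hC
  have hZC : center G ≤ C := center_le_centralizer _
  have hpg : IsPGroup p (C ⧸ (center G).subgroupOf C) := by
    intro c'
    obtain ⟨c, rfl⟩ := QuotientGroup.mk_surjective c'
    obtain ⟨u, v, hu, hv, huv, hup, hvp⟩ := exists_p_decomp (c : G) (orderOf_pos _) p
    have hvC : v ∈ C := (zpowers_le.2 c.2) hv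
    have hvZ : v ∈ center G := hII v hvC hvp
    obtain ⟨k, hk⟩ := hup
    refine ⟨k, ?_⟩
    rw [← QuotientGroup.mk_pow, QuotientGroup.eq_one_iff, mem_subgroupOf, Subgroup.coe_pow, ← huv]
    have hcomm : Commute u v := (mem_center_iff.1 hvZ u)
    rw [hcomm.mul_pow, ← hk, pow_orderOf_eq_one, one_mul]
    exact pow_mem hvZ _
  obtain ⟨b, hb⟩ := IsPGroup.iff_card.1 hpg
  have hrel : (center G).relIndex C = p ^ b := by
    rw [← hb]; rfl
  intro y hy
  by_contra hyZ
  set D := centralizer ({y} : Set G) with hD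
  have hZD : center G ≤ D := center_le_centralizer _
  have h1 : (center G).relIndex C * C.index = (center G).index := relIndex_mul_index hZC
  have h2 : (center G).relIndex D * D.index = (center G).index := relIndex_mul_index hZD
  rw [h.index_eq hx] at h1
  rw [h.index_eq hyZ] at h2
  have hn : 0 < n := h.pos hx
  have hrelD : (center G).relIndex D = p ^ b := by
    rw [← hrel]; exact Nat.eq_of_mul_eq_mul_right hn (h2.trans h1.symm)
  have hyD : y ∈ D := by rw [hD, mem_centralizer_singleton_iff]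
  have hq : ((⟨y, hyD⟩ : D) : D ⧸ (center G).subgroupOf D) ^ (p ^ b) = 1 := by
    have hcard : Nat.card (D ⧸ (center G).subgroupOf D) = p ^ b := hrelD
    rw [← hcard]; exact pow_card_eq_one'
  rw [← QuotientGroup.mk_pow, QuotientGroup.eq_one_iff, mem_subgroupOf] at hq
  have hq' : y ^ p ^ b ∈ center G := hq
  have hcop : Nat.Coprime (p ^ b) (orderOf y) :=
    Nat.Coprime.pow_left b ((Nat.Prime.coprime_iff_not_dvd hp).2 hy)
  obtain ⟨m, hm⟩ := exists_pow_eq_self_of_coprime hcop
  apply hyZ
  rw [← hm]; exact pow_mem hq' m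

/-- type I: the centralizer is abelian -/
theorem TwoClass.comm_of_typeI {G : Type*} [Group G] [Finite G] {n : ℕ} (h : TwoClass G n)
    (p : ℕ) [Fact p.Prime] {x y : G} (hx : x ∉ center G) (hxp : IsPEl p x)
    (hy : y ∈ centralizer ({x} : Set G)) (hyZ : y ∉ center G) (hyp : ¬ p ∣ orderOf y) :
    ∀ c ∈ centralizer ({x} : Set G), ∀ c' ∈ centralizer ({x} : Set G), c * c' = c' * c := by
  have hp : p.Prime := Fact.out
  have hcop_of : ∀ u v : G, IsPEl p u → ¬ p ∣ orderOf v → (orderOf u).Coprime (orderOf v) := by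
    rintro u v ⟨k, hk⟩ hv
    rw [hk]; exact Nat.Coprime.pow_left k ((Nat.Prime.coprime_iff_not_dvd hp).2 hv)
  have hxy : Commute x y := by
    rw [mem_centralizer_singleton_iff] at hy; exact hy.symm
  have hCxy : centralizer ({x} : Set G) = centralizer ({y} : Set G) :=
    h.centralizer_eq hx hyZ (h.centralizer_le_of_coprime hx hxy (hcop_of x y hxp hyp))
  intro c hc c' hc'
  obtain ⟨u, v, hu, hv, huv, hup, hvp⟩ := exists_p_decomp c (orderOf_pos _) p
  have huC : u ∈ centralizer ({x} : Set G) := (zpowers_le.2 hc) hu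
  have hvC : v ∈ centralizer ({x} : Set G) := (zpowers_le.2 hc) hv
  have h1 : centralizer ({x} : Set G) ≤ centralizer ({v} : Set G) := by
    apply h.centralizer_le_of_coprime hx
    · rw [mem_centralizer_singleton_iff] at hvC; exact hvC.symm
    · exact hcop_of x v hxp hvp
  have h2 : centralizer ({y} : Set G) ≤ centralizer ({u} : Set G) := by
    apply h.centralizer_le_of_coprime hyZ
    · rw [hCxy, mem_centralizer_singleton_iff] at huC; exact huC.symm
    · exact (hcop_of u y hup hyp).symm
  have hcu : c' * u = u * c' := by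
    have h3 := h2 (hCxy ▸ hc')
    rwa [mem_centralizer_singleton_iff] at h3
  have hcv : c' * v = v * c' := by
    have h3 := h1 hc'
    rwa [mem_centralizer_singleton_iff] at h3
  rw [← huv]
  calc u * v * c' = u * (v * c') := by group
    _ = u * (c' * v) := by rw [hcv]
    _ = (u * c') * v := by group
    _ = (c' * u) * v := by rw [hcu]
    _ = c' * (u * v) := by group

/-- if for no prime `p` all `p'`-elements are central, all centralizers of non-central elements
are abelian -/
theorem TwoClass.comm_of_not_central {G : Type*} [Group G] [Finite G] {n : ℕ} (h : TwoClass G n)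
    (hNP : ∀ p : ℕ, p.Prime → ∃ y : G, y ∉ center G ∧ ¬ p ∣ orderOf y)
    {g : G} (hg : g ∉ center G) :
    ∀ c ∈ centralizer ({g} : Set G), ∀ c' ∈ centralizer ({g} : Set G), c * c' = c' * c := by
  obtain ⟨p, hp, x, hxg, hxp, hxZ⟩ := exists_pEl_not_mem (center G) _ g rfl hg
  have hI : ∃ y ∈ centralizer ({x} : Set G), y ∉ center G ∧ ¬ p ∣ orderOf y := by
    by_contra hcon
    obtain ⟨y, hyZ, hyp⟩ := hNP p hp.out
    apply hyZ
    apply h.central_of_typeII p hxZ _ y hyp
    intro y' hy' hyp'
    by_contra hyZ'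
    exact hcon ⟨y', hy', hyZ', hyp'⟩
  obtain ⟨y, hy, hyZ, hyp⟩ := hI
  have hab := h.comm_of_typeI p hxZ hxp hy hyZ hyp
  have hle := centralizer_le_of_mem_zpowers hxg
  intro c hc c' hc'
  exact hab c (hle hc) c' (hle hc')

theorem TwoClass.centralizer_eq_of_mem {G : Type*} [Group G] [Finite G] {n : ℕ}
    (h : TwoClass G n)
    (hab : ∀ g : G, g ∉ center G → ∀ c ∈ centralizer ({g} : Set G),
      ∀ c' ∈ centralizer ({g} : Set G), c * c' = c' * c)
    {g u : G} (hg : g ∉ center G) (hu : u ∈ centralizer ({g} : Set G)) (huZ : u ∉ center G) :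
    centralizer ({u} : Set G) = centralizer ({g} : Set G) := by
  symm
  apply h.centralizer_eq hg huZ
  intro c hc
  rw [mem_centralizer_singleton_iff]
  exact hab g hg c hc u hu

theorem TwoClass.relIndex_mul {G : Type*} [Group G] {n : ℕ} (h : TwoClass G n) {g : G}
    (hg : g ∉ center G) :
    (center G).relIndex (centralizer ({g} : Set G)) * n = (center G).index := by
  have h1 := relIndex_mul_index (center_le_centralizer ({g} : Set G))
  rwa [h.index_eq hg] at h1

theorem TwoClass.relIndex_le {G : Type*} [Group G] [Finite G] {n : ℕ} (h : TwoClass G n)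
    (hn : 1 < n)
    (hab : ∀ g : G, g ∉ center G → ∀ c ∈ centralizer ({g} : Set G),
      ∀ c' ∈ centralizer ({g} : Set G), c * c' = c' * c)
    {g : G} (hg : g ∉ center G) :
    (center G).relIndex (centralizer ({g} : Set G)) ≤ n := by
  have hCtop : centralizer ({g} : Set G) ≠ ⊤ := by
    intro htop
    have h1 := h.index_eq hg
    rw [htop, index_top] at h1
    omega
  obtain ⟨u, -, hu⟩ := SetLike.exists_of_lt (lt_top_iff_ne_top.2 hCtop)
  have huZ : u ∉ center G := fun hc => hu (center_le_centralizer _ hc)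
  have hinf : centralizer ({u} : Set G) ⊓ centralizer ({g} : Set G) = center G := by
    apply le_antisymm
    · intro t ht
      rw [Subgroup.mem_inf] at ht
      by_contra htZ
      have e1 := h.centralizer_eq_of_mem hab hg ht.2 htZ
      have e2 := h.centralizer_eq_of_mem hab huZ ht.1 htZ
      apply hu
      rw [← e1, e2, mem_centralizer_singleton_iff]
    · exact le_inf (center_le_centralizer _) (center_le_centralizer _)
  have h1 : (centralizer ({u} : Set G)).relIndex (centralizer ({g} : Set G)) ≤ n := by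
    have h2 := relIndex_le_of_le_right (H := centralizer ({u} : Set G))
      (K := centralizer ({g} : Set G)) (L := ⊤) le_top
      (by rw [relIndex_top_right]; exact index_ne_zero_of_finite)
    rw [relIndex_top_right, h.index_eq huZ] at h2
    exact h2
  rw [← hinf, inf_relIndex_right]
  exact h1

/-- a conjugating element of `p`-power order which moves the `q`-element `w` only by a central
element fixes `w` -/
theorem commute_of_conj_eq_mul_central {G : Type*} [Group G] {g w z : G} (hz : z ∈ center G)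
    (hgw : g * w * g⁻¹ = w * z) (hcop : (orderOf g).Coprime (orderOf w)) : g * w = w * g := by
  have hwz : Commute w z := (mem_center_iff.1 hz w)
  have h1 : z ^ orderOf w = 1 := by
    have e : (g * w * g⁻¹) ^ orderOf w = 1 := by rw [conj_pow, pow_orderOf_eq_one]; group
    rw [hgw, hwz.mul_pow, pow_orderOf_eq_one, one_mul] at e
    exact e
  have h2 : ∀ j : ℕ, g ^ j * w * (g ^ j)⁻¹ = w * z ^ j := by
    intro j
    induction j with
    | zero => simp
    | succ j ih =>
      have hzg : Commute z g := (mem_center_iff.1 hz g).symm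
      calc g ^ (j + 1) * w * (g ^ (j + 1))⁻¹ = g * (g ^ j * w * (g ^ j)⁻¹) * g⁻¹ := by
            rw [pow_succ']; group
        _ = g * (w * z ^ j) * g⁻¹ := by rw [ih]
        _ = (g * w * g⁻¹) * (g * z ^ j * g⁻¹) := by group
        _ = (w * z) * z ^ j := by
            rw [hgw]
            have : g * z ^ j * g⁻¹ = z ^ j := by
              have hc : Commute g (z ^ j) := (hzg.pow_left j).symm
              rw [hc.eq]; group
            rw [this]
        _ = w * z ^ (j + 1) := by rw [pow_succ']; group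
  have h3 : z ^ orderOf g = 1 := by
    have e := h2 (orderOf g)
    rw [pow_orderOf_eq_one] at e
    have e' : w = w * z ^ orderOf g := by simpa using e
    exact (mul_eq_left.1 e'.symm)
  have h4 : orderOf z = 1 :=
    Nat.eq_one_of_dvd_coprimes hcop (orderOf_dvd_of_pow_eq_one h3) (orderOf_dvd_of_pow_eq_one h1)
  rw [orderOf_eq_one_iff] at h4
  rw [h4, mul_one] at hgw
  have e : g * w = (g * w * g⁻¹) * g := by group
  rw [e, hgw]

/-- the index of `P ∩ A` in a Sylow `p`-subgroup `P` is at least the `p`-part of the index of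
`A` -/
theorem pow_factorization_index_le_relIndex {G : Type*} [Group G] [Finite G] (p : ℕ)
    [Fact p.Prime] (P : Sylow p G) (A : Subgroup G) :
    p ^ A.index.factorization p ≤ A.relIndex (P : Subgroup G) := by
  have hp : p.Prime := Fact.out
  have h1 : (A.subgroupOf (P : Subgroup G)).index * Nat.card (A.subgroupOf (P : Subgroup G)) =
      Nat.card (P : Subgroup G) := (A.subgroupOf (P : Subgroup G)).index_mul_card
  have hpg : IsPGroup p (A.subgroupOf (P : Subgroup G)) := P.2.to_subgroup _
  obtain ⟨k, hk⟩ := IsPGroup.iff_card.1 hpg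
  have hcard : Nat.card (A.subgroupOf (P : Subgroup G)) = Nat.card ↥(A ⊓ (P : Subgroup G)) := by
    rw [← inf_subgroupOf_right A (P : Subgroup G)]
    exact Nat.card_congr (subgroupOfEquivOfLe inf_le_right).toEquiv
  have hdvd : p ^ k ∣ Nat.card A := by
    rw [← hk, hcard]; exact Subgroup.card_dvd_of_le inf_le_left
  have hkle : k ≤ (Nat.card A).factorization p :=
    (hp.pow_dvd_iff_le_factorization Nat.card_pos.ne').1 hdvd
  have hfac : (Nat.card G).factorization p =
      (Nat.card A).factorization p + A.index.factorization p := by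
    rw [← A.card_mul_index, Nat.factorization_mul Nat.card_pos.ne' index_ne_zero_of_finite]
    rfl
  rw [hk, P.card_eq_multiplicity, hfac] at h1
  have h2 : A.relIndex (P : Subgroup G) =
      p ^ ((Nat.card A).factorization p + A.index.factorization p - k) := by
    have e : p ^ ((Nat.card A).factorization p + A.index.factorization p) =
        p ^ ((Nat.card A).factorization p + A.index.factorization p - k) * p ^ k := by
      rw [← pow_add]; congr 1; omega
    rw [e] at h1
    exact Nat.eq_of_mul_eq_mul_right (pow_pos hp.pos k) h1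
  rw [h2]
  exact Nat.pow_le_pow_right hp.pos (by omega)

/-- key inequality in the case of abelian centralizers -/
theorem TwoClass.part_lt {G : Type*} [Group G] [Finite G] {n : ℕ} (h : TwoClass G n)
    (hab : ∀ g : G, g ∉ center G → ∀ c ∈ centralizer ({g} : Set G),
      ∀ c' ∈ centralizer ({g} : Set G), c * c' = c' * c)
    (m : ℕ) (hm : ∀ g : G, g ∉ center G → (center G).relIndex (centralizer ({g} : Set G)) = m)
    (hex : ∃ g : G, g ∉ center G)
    (p q : ℕ) [Fact p.Prime] [Fact q.Prime] (hpq : p ≠ q) (hpn : p ∣ n) (hqm : q ∣ m) :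
    p ^ n.factorization p < q ^ m.factorization q := by
  have hp : p.Prime := Fact.out
  have hq : q.Prime := Fact.out
  obtain ⟨P⟩ : Nonempty (Sylow p G) := inferInstance
  -- (i) central elements of `P` are central in `G`
  have hZP : ∀ v ∈ (P : Subgroup G), (∀ g ∈ (P : Subgroup G), g * v = v * g) → v ∈ center G := by
    intro v hv hcomm
    by_contra hvZ
    have hle : (P : Subgroup G) ≤ centralizer ({v} : Set G) := by
      intro g hg
      rw [mem_centralizer_singleton_iff]
      exact hcomm g hg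
    have h1 := index_dvd_of_le hle
    rw [h.index_eq hvZ] at h1
    exact P.not_dvd_index (hpn.trans h1)
  -- (ii) `P` is not central
  obtain ⟨x₀, hx₀P, hx₀Z⟩ : ∃ x₀ ∈ (P : Subgroup G), x₀ ∉ center G := by
    by_contra hcon
    obtain ⟨g₀, hg₀⟩ := hex
    have hle : (P : Subgroup G) ≤ centralizer ({g₀} : Set G) := by
      intro g hg
      apply center_le_centralizer
      by_contra hgZ
      exact hcon ⟨g, hg, hgZ⟩
    have h1 := index_dvd_of_le hle
    rw [h.index_eq hg₀] at h1
    exact P.not_dvd_index (hpn.trans h1)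
  -- (iii) an element of the second center of `P`
  have hx₀' : (⟨x₀, hx₀P⟩ : (P : Subgroup G)) ∉ center (P : Subgroup G) := by
    intro hc
    apply hx₀Z
    apply hZP x₀ hx₀P
    intro g hg
    have := mem_center_iff.1 hc ⟨g, hg⟩
    exact congrArg Subtype.val this
  have hQpg : IsPGroup p ((P : Subgroup G) ⧸ center (P : Subgroup G)) := P.2.to_quotient _
  have hnt : Nontrivial ((P : Subgroup G) ⧸ center (P : Subgroup G)) := by
    refine ⟨⟨((⟨x₀, hx₀P⟩ : (P : Subgroup G)) : (P : Subgroup G) ⧸ center (P : Subgroup G)), 1, ?_⟩⟩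
    intro h1
    exact hx₀' ((QuotientGroup.eq_one_iff _).1 h1)
  have hcnt : Nontrivial (center ((P : Subgroup G) ⧸ center (P : Subgroup G))) :=
    hQpg.center_nontrivial
  obtain ⟨⟨t₀, ht₀c⟩, ht₀1⟩ := exists_ne (1 : center ((P : Subgroup G) ⧸ center (P : Subgroup G)))
  obtain ⟨t', rfl⟩ := QuotientGroup.mk_surjective t₀
  have ht'1 : t' ∉ center (P : Subgroup G) := by
    intro hc
    apply ht₀1
    apply Subtype.ext
    exact (QuotientGroup.eq_one_iff _).2 hc
  have ht'2 : ∀ g' : (P : Subgroup G), g' * t' * g'⁻¹ * t'⁻¹ ∈ center (P : Subgroup G) := by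
    intro g'
    rw [← QuotientGroup.eq_one_iff]
    have hc := mem_center_iff.1 ht₀c (g' : (P : Subgroup G) ⧸ center (P : Subgroup G))
    rw [QuotientGroup.mk_mul, QuotientGroup.mk_mul, QuotientGroup.mk_mul, QuotientGroup.mk_inv,
      QuotientGroup.mk_inv, hc]
    group
  set t : G := (t' : G) with ht
  have htP : t ∈ (P : Subgroup G) := t'.2
  have htZ : t ∉ center G := by
    intro hc
    apply ht'1
    rw [mem_center_iff]
    intro g'
    apply Subtype.ext
    exact mem_center_iff.1 hc (g' : G)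
  have htconj : ∀ g ∈ (P : Subgroup G), g * t * g⁻¹ * t⁻¹ ∈ center G := by
    intro g hg
    have h1 := ht'2 ⟨g, hg⟩
    apply hZP _ (mul_mem (mul_mem (mul_mem hg htP) (inv_mem hg)) (inv_mem htP))
    intro g₁ hg₁
    have := mem_center_iff.1 h1 ⟨g₁, hg₁⟩
    exact congrArg Subtype.val this
  -- (iv) `A = C(t)` is normalized by `P`
  set A := centralizer ({t} : Set G) with hA
  have hPA : ∀ g ∈ (P : Subgroup G), ∀ c ∈ A, g * c * g⁻¹ ∈ A := by
    intro g hg c hc
    rw [hA, mem_centralizer_singleton_iff] at hc ⊢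
    have hz := htconj g hg
    set z := g * t * g⁻¹ * t⁻¹ with hzdef
    have hgt : g * t * g⁻¹ = z * t := by rw [hzdef]; group
    have h1 : (g * c * g⁻¹) * (g * t * g⁻¹) = (g * t * g⁻¹) * (g * c * g⁻¹) := by
      calc (g * c * g⁻¹) * (g * t * g⁻¹) = g * (c * t) * g⁻¹ := by group
        _ = g * (t * c) * g⁻¹ := by rw [hc]
        _ = (g * t * g⁻¹) * (g * c * g⁻¹) := by group
    rw [hgt] at h1
    have hzc : (g * c * g⁻¹) * z = z * (g * c * g⁻¹) := mem_center_iff.1 hz _
    have h2 : z * ((g * c * g⁻¹) * t) = z * (t * (g * c * g⁻¹)) := by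
      calc z * ((g * c * g⁻¹) * t) = ((g * c * g⁻¹) * z) * t := by rw [hzc]; group
        _ = (g * c * g⁻¹) * (z * t) := by group
        _ = z * t * (g * c * g⁻¹) := h1
        _ = z * (t * (g * c * g⁻¹)) := by group
    exact mul_left_cancel h2
  have hmA : (center G).relIndex A = m := hm t htZ
  -- (v) a non-central `q`-element of `A`
  obtain ⟨w, hwA, hwZ, hwq⟩ : ∃ w ∈ A, w ∉ center G ∧ IsPEl q w := by
    have hcard : Nat.card (A ⧸ (center G).subgroupOf A) = m := hmA
    obtain ⟨a', ha'⟩ := exists_prime_orderOf_dvd_card' (G := A ⧸ (center G).subgroupOf A) q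
      (by rw [hcard]; exact hqm)
    obtain ⟨a, rfl⟩ := QuotientGroup.mk_surjective a'
    have haZ : (a : G) ∉ center G := by
      intro hc
      have h1 : ((a : A) : A ⧸ (center G).subgroupOf A) = 1 :=
        (QuotientGroup.eq_one_iff _).2 (mem_subgroupOf.2 hc)
      rw [h1, orderOf_one] at ha'
      exact hq.one_lt.ne ha'
    have haq : (a : G) ^ q ∈ center G := by
      have h1 : ((a : A) : A ⧸ (center G).subgroupOf A) ^ q = 1 := by
        rw [← ha']; exact pow_orderOf_eq_one _
      rw [← QuotientGroup.mk_pow, QuotientGroup.eq_one_iff, mem_subgroupOf] at h1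
      exact h1
    obtain ⟨q', hq', x, hxa, hxq', hxZ⟩ := exists_pEl_not_mem (center G) _ (a : G) rfl haZ
    have hxq : x ^ q ∈ center G := by
      obtain ⟨i, hi⟩ := mem_zpowers_iff.1 hxa
      rw [← hi, ← zpow_natCast, ← zpow_mul, mul_comm, zpow_mul, zpow_natCast]
      exact zpow_mem haq i
    have hqq' : q' = q := by
      by_contra hne
      obtain ⟨k, hk⟩ := hxq'
      have hcop : Nat.Coprime q (orderOf x) := by
        rw [hk]
        exact Nat.Coprime.pow_right k ((Nat.coprime_primes hq hq'.out).2 (Ne.symm hne))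
      obtain ⟨j, hj⟩ := exists_pow_eq_self_of_coprime hcop
      apply hxZ
      rw [← hj]; exact pow_mem hxq j
    subst hqq'
    exact ⟨x, (zpowers_le.2 a.2) hxa, hxZ, hxq'⟩
  -- (vi) `C(w) = A`
  have hCw : centralizer ({w} : Set G) = A := h.centralizer_eq_of_mem hab htZ hwA hwZ
  -- (vii) the quotient `A / Z` and its Sylow `q`-subgroup
  have hcardQ : Nat.card (A ⧸ (center G).subgroupOf A) = m := hmA
  have hQcomm : ∀ a b : A ⧸ (center G).subgroupOf A, a * b = b * a := by
    intro a b
    obtain ⟨a, rfl⟩ := QuotientGroup.mk_surjective a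
    obtain ⟨b, rfl⟩ := QuotientGroup.mk_surjective b
    rw [← QuotientGroup.mk_mul, ← QuotientGroup.mk_mul]
    congr 1
    apply Subtype.ext
    exact hab t htZ a a.2 b b.2
  obtain ⟨S⟩ : Nonempty (Sylow q (A ⧸ (center G).subgroupOf A)) := inferInstance
  have hSn : (S : Subgroup (A ⧸ (center G).subgroupOf A)).Normal := by
    constructor
    intro s hs a
    rw [hQcomm a s, mul_assoc, mul_inv_cancel, mul_one]
    exact hs
  have hScard : Nat.card (S : Subgroup (A ⧸ (center G).subgroupOf A)) = q ^ m.factorization q := by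
    rw [S.card_eq_multiplicity, hcardQ]
  -- (viii) the injection
  have hwo : ∀ g : G, orderOf (g * w * g⁻¹) = orderOf w := fun g => orderOf_conj' g w
  have hxc : ∀ r : (P : Subgroup G), (r : G) * w * (r : G)⁻¹ ∈ A := fun r => hPA r r.2 w hwA
  have hxZ : ∀ r : (P : Subgroup G), (r : G) * w * (r : G)⁻¹ ∉ center G := by
    intro r hc
    apply hwZ
    have h1 := (inferInstance : (center G).Normal).conj_mem _ hc (r : G)⁻¹
    have e : (r : G)⁻¹ * ((r : G) * w * (r : G)⁻¹) * (r : G)⁻¹⁻¹ = w := by group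
    rwa [e] at h1
  have hmemS : ∀ r : (P : Subgroup G),
      ((⟨(r : G) * w * (r : G)⁻¹, hxc r⟩ : A) : A ⧸ (center G).subgroupOf A) ∈
        (S : Subgroup (A ⧸ (center G).subgroupOf A)) := by
    intro r
    apply mem_sylow_of_normal q S hSn
    obtain ⟨k, hk⟩ := hwq
    have h1 : orderOf ((⟨(r : G) * w * (r : G)⁻¹, hxc r⟩ : A) : A ⧸ (center G).subgroupOf A) ∣
        orderOf (⟨(r : G) * w * (r : G)⁻¹, hxc r⟩ : A) :=
      orderOf_map_dvd (QuotientGroup.mk' ((center G).subgroupOf A)) _
    rw [Subgroup.orderOf_mk, hwo, hk] at h1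
    obtain ⟨j, -, hj⟩ := (Nat.dvd_prime_pow hq).1 h1
    exact ⟨j, hj⟩
  have hne1 : ∀ r : (P : Subgroup G),
      (⟨((⟨(r : G) * w * (r : G)⁻¹, hxc r⟩ : A) : A ⧸ (center G).subgroupOf A), hmemS r⟩ :
        (S : Subgroup (A ⧸ (center G).subgroupOf A))) ≠ 1 := by
    intro r h1
    have h2 : ((⟨(r : G) * w * (r : G)⁻¹, hxc r⟩ : A) : A ⧸ (center G).subgroupOf A) = 1 :=
      congrArg Subtype.val h1
    rw [QuotientGroup.eq_one_iff, mem_subgroupOf] at h2
    exact hxZ r h2
  let f : ((P : Subgroup G) ⧸ A.subgroupOf (P : Subgroup G)) →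
      {s : (S : Subgroup (A ⧸ (center G).subgroupOf A)) // s ≠ 1} := fun c =>
    ⟨⟨((⟨(c.out : G) * w * (c.out : G)⁻¹, hxc c.out⟩ : A) : A ⧸ (center G).subgroupOf A),
      hmemS c.out⟩, hne1 c.out⟩
  have hf : Function.Injective f := by
    intro c c' hcc
    have h1 : ((⟨(c.out : G) * w * (c.out : G)⁻¹, hxc c.out⟩ : A) : A ⧸ (center G).subgroupOf A) =
        ((⟨(c'.out : G) * w * (c'.out : G)⁻¹, hxc c'.out⟩ : A) : A ⧸ (center G).subgroupOf A) := by
      have := congrArg (fun s : {s : (S : Subgroup (A ⧸ (center G).subgroupOf A)) // s ≠ 1} =>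
        ((s : (S : Subgroup (A ⧸ (center G).subgroupOf A))) : A ⧸ (center G).subgroupOf A)) hcc
      exact this
    rw [QuotientGroup.eq, mem_subgroupOf] at h1
    have h2 : ((c.out : G) * w * (c.out : G)⁻¹)⁻¹ * ((c'.out : G) * w * (c'.out : G)⁻¹) ∈
        center G := h1
    set z := ((c.out : G) * w * (c.out : G)⁻¹)⁻¹ * ((c'.out : G) * w * (c'.out : G)⁻¹) with hz
    set g : G := (c.out : G)⁻¹ * (c'.out : G) with hg
    have hgP : g ∈ (P : Subgroup G) := mul_mem (inv_mem c.out.2) c'.out.2
    have hgw : g * w * g⁻¹ = w * z := by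
      have hzc : Commute z (c.out : G) := (mem_center_iff.1 h2 _).symm
      have e1 : g * w * g⁻¹ = (c.out : G)⁻¹ * (((c.out : G) * w * (c.out : G)⁻¹) * z) *
          (c.out : G) := by
        rw [hg, hz]; group
      rw [e1]
      calc (c.out : G)⁻¹ * (((c.out : G) * w * (c.out : G)⁻¹) * z) * (c.out : G)
          = w * ((c.out : G)⁻¹ * (z * (c.out : G))) := by group
        _ = w * ((c.out : G)⁻¹ * ((c.out : G) * z)) := by rw [hzc.eq]
        _ = w * z := by group
    have hcop : (orderOf g).Coprime (orderOf w) := by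
      obtain ⟨k, hk⟩ := hwq
      obtain ⟨i, hi⟩ := P.2 ⟨g, hgP⟩
      have hi' : g ^ p ^ i = 1 := congrArg Subtype.val hi
      obtain ⟨j, -, hj⟩ := (Nat.dvd_prime_pow hp).1 (orderOf_dvd_of_pow_eq_one hi')
      rw [hj, hk]
      exact Nat.Coprime.pow _ _ ((Nat.coprime_primes hp hq).2 hpq)
    have hgcomm : g * w = w * g := commute_of_conj_eq_mul_central h2 hgw hcop
    have hgA : g ∈ A := by
      rw [← hCw, mem_centralizer_singleton_iff]
      exact hgcomm
    rw [← QuotientGroup.out_eq' c, ← QuotientGroup.out_eq' c']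
    exact QuotientGroup.eq.2 (mem_subgroupOf.2 hgA)
  -- (ix) counting
  have hle1 := Nat.card_le_card_of_injective f hf
  have hidx : Nat.card ((P : Subgroup G) ⧸ A.subgroupOf (P : Subgroup G)) =
      A.relIndex (P : Subgroup G) := rfl
  have hsub := card_subtype_ne_add_one (1 : (S : Subgroup (A ⧸ (center G).subgroupOf A)))
  have hlow := pow_factorization_index_le_relIndex p P A
  rw [hA, h.index_eq htZ, ← hA] at hlow
  rw [hidx] at hle1
  rw [hScard] at hsub
  omega

/-- the image of a non-central element in `C(g) / Z` has an order `d ≠ 1` dividing both the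
order of `g` and `|C(g) : Z|` -/
theorem exists_dvd_relIndex_of_not_mem_center {G : Type*} [Group G] [Finite G] {g : G}
    (hg : g ∉ center G) :
    ∃ d : ℕ, d ∣ (center G).relIndex (centralizer ({g} : Set G)) ∧ d ∣ orderOf g ∧ d ≠ 1 := by
  set D := centralizer ({g} : Set G) with hD
  have hgD : g ∈ D := by rw [hD, mem_centralizer_singleton_iff]
  refine ⟨orderOf (((⟨g, hgD⟩ : D) : D ⧸ (center G).subgroupOf D)), ?_, ?_, ?_⟩
  · have h1 : (center G).relIndex D = Nat.card (D ⧸ (center G).subgroupOf D) := rfl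
    rw [h1]
    exact orderOf_dvd_natCard _
  · have h1 := orderOf_map_dvd (QuotientGroup.mk' ((center G).subgroupOf D)) (⟨g, hgD⟩ : D)
    rw [Subgroup.orderOf_mk] at h1
    exact h1
  · intro h1
    rw [orderOf_eq_one_iff, QuotientGroup.eq_one_iff, mem_subgroupOf] at h1
    exact hg h1

/-- Itô: there is a prime `p` such that all `p'`-elements are central -/
theorem TwoClass.exists_prime_central {G : Type*} [Group G] [Finite G] {n : ℕ} (h : TwoClass G n)
    (hn : 1 < n) (hex : ∃ g : G, g ∉ center G) :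
    ∃ p : ℕ, p.Prime ∧ ∀ y : G, ¬ p ∣ orderOf y → y ∈ center G := by
  by_contra hcon
  have hNP : ∀ p : ℕ, p.Prime → ∃ y : G, y ∉ center G ∧ ¬ p ∣ orderOf y := by
    intro p hp
    by_contra h1
    apply hcon
    refine ⟨p, hp, fun y hy => ?_⟩
    by_contra hyZ
    exact h1 ⟨y, hyZ, hy⟩
  have hab : ∀ g : G, g ∉ center G → ∀ c ∈ centralizer ({g} : Set G),
      ∀ c' ∈ centralizer ({g} : Set G), c * c' = c' * c :=
    fun g hg => h.comm_of_not_central hNP hg
  obtain ⟨g₀, hg₀⟩ := hex
  set m := (center G).relIndex (centralizer ({g₀} : Set G)) with hmdef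
  have hn0 : 0 < n := h.pos hg₀
  have hm : ∀ g : G, g ∉ center G → (center G).relIndex (centralizer ({g} : Set G)) = m := by
    intro g hg
    exact Nat.eq_of_mul_eq_mul_right hn0 ((h.relIndex_mul hg).trans (h.relIndex_mul hg₀).symm)
  have hmle : m ≤ n := h.relIndex_le hn hab hg₀
  have hm0 : 0 < m := by
    rcases Nat.eq_zero_or_pos m with h0 | h0
    · have h1 := h.relIndex_mul hg₀
      rw [← hmdef, h0, zero_mul] at h1
      exact absurd h1.symm index_ne_zero_of_finite
    · exact h0
  -- prime divisors of `m`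
  have hQ : ∀ g : G, g ∉ center G → ∃ r : ℕ, r.Prime ∧ r ∣ m ∧ r ∣ orderOf g := by
    intro g hg
    obtain ⟨d, hd1, hd2, hd3⟩ := exists_dvd_relIndex_of_not_mem_center hg
    rw [hm g hg] at hd1
    obtain ⟨r, hr, hrd⟩ := Nat.exists_prime_and_dvd hd3
    exact ⟨r, hr, hrd.trans hd1, hrd.trans hd2⟩
  have h2 : ∃ q₁ q₂ : ℕ, q₁.Prime ∧ q₂.Prime ∧ q₁ ≠ q₂ ∧ q₁ ∣ m ∧ q₂ ∣ m := by
    obtain ⟨q₁, hq₁, hq₁m, -⟩ := hQ g₀ hg₀
    obtain ⟨y, hyZ, hyq⟩ := hNP q₁ hq₁
    obtain ⟨q₂, hq₂, hq₂m, hq₂y⟩ := hQ y hyZ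
    refine ⟨q₁, q₂, hq₁, hq₂, ?_, hq₁m, hq₂m⟩
    rintro rfl
    exact hyq hq₂y
  have h1 : ∀ p : ℕ, p.Prime → p ∣ n → p ∣ m := by
    intro p hp hpn
    have : Fact p.Prime := ⟨hp⟩
    obtain ⟨P⟩ : Nonempty (Sylow p G) := inferInstance
    obtain ⟨x₀, hx₀P, hx₀Z⟩ : ∃ x₀ ∈ (P : Subgroup G), x₀ ∉ center G := by
      by_contra hcon2
      have hle : (P : Subgroup G) ≤ centralizer ({g₀} : Set G) := by
        intro g hg
        apply center_le_centralizer
        by_contra hgZ
        exact hcon2 ⟨g, hg, hgZ⟩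
      have h3 := index_dvd_of_le hle
      rw [h.index_eq hg₀] at h3
      exact P.not_dvd_index (hpn.trans h3)
    obtain ⟨r, hr, hrm, hrx⟩ := hQ x₀ hx₀Z
    obtain ⟨i, hi⟩ := P.2 ⟨x₀, hx₀P⟩
    have hi' : x₀ ^ p ^ i = 1 := congrArg Subtype.val hi
    have h4 : r ∣ p ^ i := hrx.trans (orderOf_dvd_of_pow_eq_one hi')
    have h5 : r = p := (Nat.prime_dvd_prime_iff_eq hr hp).1 (hr.dvd_of_dvd_pow h4)
    rw [← h5]; exact hrm
  have h3 : ∀ p q : ℕ, p.Prime → q.Prime → p ≠ q → p ∣ n → q ∣ m →
      p ^ n.factorization p < q ^ m.factorization q := by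
    intro p q hp hq hpq hpn hqm
    have : Fact p.Prime := ⟨hp⟩
    have : Fact q.Prime := ⟨hq⟩
    exact h.part_lt hab m hm ⟨g₀, hg₀⟩ p q hpq hpn hqm
  have hlt := lt_of_prime_power_parts n m hn0 hm0 h1 h2 h3
  omega

theorem centralizer_mul_central {G : Type*} [Group G] {a z : G} (hz : z ∈ center G) :
    centralizer ({a * z} : Set G) = centralizer ({a} : Set G) := by
  ext c
  rw [mem_centralizer_singleton_iff, mem_centralizer_singleton_iff]
  have hzc : c * z = z * c := mem_center_iff.1 hz c
  have hza : a * z = z * a := mem_center_iff.1 hz a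
  constructor
  · intro h1
    have h2 : z * (c * a) = z * (a * c) := by
      calc z * (c * a) = (c * z) * a := by rw [hzc]; group
        _ = c * (a * z) := by rw [hza]; group
        _ = a * z * c := h1
        _ = z * (a * c) := by rw [hza]; group
    exact mul_left_cancel h2
  · intro h1
    calc c * (a * z) = (c * a) * z := by group
      _ = (a * c) * z := by rw [h1]
      _ = a * (c * z) := by group
      _ = a * (z * c) := by rw [hzc]
      _ = a * z * c := by group

universe u

/-- Itô's theorem on groups with two class sizes -/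
theorem TwoClass.structure {G : Type u} [Group G] [Finite G] {n : ℕ} (h : TwoClass G n)
    (hn : 1 < n) (hex : ∃ x : G, (centralizer ({x} : Set G)).index = n) :
    ∃ (p : ℕ) (_ : Fact p.Prime) (a : ℕ), n = p ^ a ∧ ∀ P : Sylow p G, (P : Subgroup G).Normal ∧
      (∃ N : Subgroup G, N.Normal ∧ N.IsComplement' (P : Subgroup G) ∧ IsMulCommutative N ∧
        ∀ x ∈ N, ∀ y ∈ (P : Subgroup G), x * y = y * x) ∧
      ∃ A : Subgroup (P : Subgroup G), A.Normal ∧ IsMulCommutative A ∧
        ∀ y : (P : Subgroup G), y ^ p ∈ A := by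
  obtain ⟨x₁, hx₁⟩ := hex
  have hx₁Z : x₁ ∉ center G := by
    intro hc
    rw [mem_center_iff_index, hx₁] at hc
    omega
  obtain ⟨p, hp, hcent⟩ := h.exists_prime_central hn ⟨x₁, hx₁Z⟩
  have hpF : Fact p.Prime := ⟨hp⟩
  -- `G / Z` is a `p`-group
  have hpg : IsPGroup p (G ⧸ center G) := by
    intro c'
    obtain ⟨c, rfl⟩ := QuotientGroup.mk_surjective c'
    obtain ⟨u, v, hu, hv, huv, hup, hvp⟩ := exists_p_decomp c (orderOf_pos _) p
    have hvZ : v ∈ center G := hcent v hvp
    obtain ⟨k, hk⟩ := hup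
    refine ⟨k, ?_⟩
    rw [← QuotientGroup.mk_pow, QuotientGroup.eq_one_iff, ← huv]
    have hcomm : Commute u v := (mem_center_iff.1 hvZ u)
    rw [hcomm.mul_pow, ← hk, pow_orderOf_eq_one, one_mul]
    exact pow_mem hvZ _
  obtain ⟨b, hb⟩ := IsPGroup.iff_card.1 hpg
  have hZidx : (center G).index = p ^ b := hb
  obtain ⟨a, -, hna⟩ : ∃ a, a ≤ b ∧ n = p ^ a := by
    apply (Nat.dvd_prime_pow hp).1
    rw [← hZidx, ← hx₁]
    exact index_dvd_of_le (center_le_centralizer _)
  refine ⟨p, hpF, a, hna, fun P => ?_⟩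
  -- the central `p'`-elements
  set N := centralPPrime p G with hN
  have hNmem : ∀ c : G, c ∈ N ↔ c ∈ center G ∧ ¬ p ∣ orderOf c := fun c => Iff.rfl
  have hNcard : ¬ p ∣ Nat.card N := card_centralPPrime p G
  have hNnormal : N.Normal := by
    constructor
    intro c hc g
    have h1 : g * c = c * g := mem_center_iff.1 ((hNmem c).1 hc).1 g
    have e : g * c * g⁻¹ = c := by rw [h1]; group
    rw [e]; exact hc
  have hpgN : IsPGroup p (G ⧸ N) := by
    intro c'
    obtain ⟨c, rfl⟩ := QuotientGroup.mk_surjective c'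
    obtain ⟨u, v, hu, hv, huv, hup, hvp⟩ := exists_p_decomp c (orderOf_pos _) p
    have hvZ : v ∈ center G := hcent v hvp
    obtain ⟨k, hk⟩ := hup
    refine ⟨k, ?_⟩
    rw [← QuotientGroup.mk_pow, QuotientGroup.eq_one_iff, ← huv]
    have hcomm : Commute u v := (mem_center_iff.1 hvZ u)
    rw [hcomm.mul_pow, ← hk, pow_orderOf_eq_one, one_mul, hNmem]
    refine ⟨pow_mem hvZ _, fun hdvd => hvp (hdvd.trans (orderOf_pow_dvd _))⟩
  obtain ⟨k', hk'⟩ := IsPGroup.iff_card.1 hpgN
  have hNidx : N.index = p ^ k' := hk'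
  have hcardG : Nat.card N * p ^ k' = Nat.card G := by rw [← hNidx]; exact N.card_mul_index
  have hfac : (Nat.card G).factorization p = k' := by
    rw [← hcardG, Nat.factorization_mul Nat.card_pos.ne' (pow_ne_zero _ hp.ne_zero)]
    simp [hp.factorization_self, Nat.factorization_eq_zero_of_not_dvd hNcard]
  have hcardP : Nat.card (P : Subgroup G) = p ^ k' := by rw [P.card_eq_multiplicity, hfac]
  have hcompl : N.IsComplement' (P : Subgroup G) := by
    apply isComplement'_of_coprime
    · rw [hcardP]; exact hcardG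
    · rw [hcardP]
      exact Nat.Coprime.pow_right _ ((Nat.Prime.coprime_iff_not_dvd hp).2 hNcard).symm
  have hPnormal : (P : Subgroup G).Normal := by
    constructor
    intro x hx g
    have hg : g ∈ ((N : Subgroup G) : Set G) * ((P : Subgroup G) : Set G) := by
      rw [← normal_mul, hcompl.sup_eq_top]; exact mem_top g
    obtain ⟨c, hc, u, hu, rfl⟩ := Set.mem_mul.1 hg
    have hcc : ∀ y : G, c * y = y * c := fun y => (mem_center_iff.1 ((hNmem c).1 hc).1 y).symm
    have e : c * u * x * (c * u)⁻¹ = u * x * u⁻¹ := by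
      calc c * u * x * (c * u)⁻¹ = c * (u * x * u⁻¹) * c⁻¹ := by group
        _ = (u * x * u⁻¹) * c * c⁻¹ := by rw [hcc]
        _ = u * x * u⁻¹ := by group
    rw [e]
    exact mul_mem (mul_mem hu hx) (inv_mem hu)
  refine ⟨hPnormal, ⟨N, hNnormal, hcompl, ⟨⟨fun a b => ?_⟩⟩, ?_⟩, ?_⟩
  · apply Subtype.ext
    exact mem_center_iff.1 ((hNmem b).1 b.2).1 (a : G)
  · intro x hx y _
    exact (mem_center_iff.1 ((hNmem x).1 hx).1 y).symm
  -- the abelian normal subgroup
  have hnt : Nontrivial (G ⧸ center G) := by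
    refine ⟨⟨(x₁ : G ⧸ center G), 1, ?_⟩⟩
    intro h1
    exact hx₁Z ((QuotientGroup.eq_one_iff _).1 h1)
  have hcnt : Nontrivial (center (G ⧸ center G)) := hpg.center_nontrivial
  have hcpg : IsPGroup p (center (G ⧸ center G)) := hpg.to_subgroup _
  have hpdvd : p ∣ Nat.card (center (G ⧸ center G)) := by
    rcases hcpg.card_eq_or_dvd with h1 | h1
    · have := Finite.one_lt_card (α := center (G ⧸ center G))
      omega
    · exact h1
  obtain ⟨⟨w₀, hw₀c⟩, hw₀⟩ := exists_prime_orderOf_dvd_card' (G := center (G ⧸ center G)) p hpdvd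
  rw [Subgroup.orderOf_mk] at hw₀
  obtain ⟨w, rfl⟩ := QuotientGroup.mk_surjective w₀
  have hwZ : w ∉ center G := by
    intro hc
    have h1 : ((w : G) : G ⧸ center G) = 1 := (QuotientGroup.eq_one_iff _).2 hc
    rw [h1, orderOf_one] at hw₀
    exact hp.one_lt.ne hw₀
  have hwp : w ^ p ∈ center G := by
    rw [← QuotientGroup.eq_one_iff, QuotientGroup.mk_pow, ← hw₀]
    exact pow_orderOf_eq_one _
  have hwc : ∀ g : G, g * w * g⁻¹ * w⁻¹ ∈ center G := by
    intro g
    rw [← QuotientGroup.eq_one_iff]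
    have hc := mem_center_iff.1 hw₀c (g : G ⧸ center G)
    rw [QuotientGroup.mk_mul, QuotientGroup.mk_mul, QuotientGroup.mk_mul, QuotientGroup.mk_inv,
      QuotientGroup.mk_inv, hc]
    group
  set AG : Subgroup G := centralizer ((centralizer ({w} : Set G) : Subgroup G) : Set G) with hAG
  have hAGmem : ∀ a : G, a ∈ AG ↔ ∀ c ∈ centralizer ({w} : Set G), c * a = a * c := by
    intro a
    rw [hAG, mem_centralizer_iff]
    rfl
  have hwC : w ∈ centralizer ({w} : Set G) := by rw [mem_centralizer_singleton_iff]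
  have hAGle : AG ≤ centralizer ({w} : Set G) := by
    intro a ha
    rw [mem_centralizer_singleton_iff]
    exact ((hAGmem a).1 ha w hwC).symm
  have hAGcomm : ∀ a ∈ AG, ∀ b ∈ AG, a * b = b * a := by
    intro a ha b hb
    exact ((hAGmem a).1 ha b (hAGle hb)).symm
  have hAGnormal : AG.Normal := by
    constructor
    intro a ha g
    rw [hAGmem]
    intro c hc
    have hz := hwc g
    set z := g * w * g⁻¹ * w⁻¹ with hzdef
    have hgw : g * w * g⁻¹ = z * w := by rw [hzdef]; group
    have hcw : c * w = w * c := by rwa [mem_centralizer_singleton_iff] at hc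
    have hcz : c * z = z * c := mem_center_iff.1 hz c
    have hc1 : g⁻¹ * c * g ∈ centralizer ({w} : Set G) := by
      rw [mem_centralizer_singleton_iff]
      have e1 : c * (g * w * g⁻¹) = (g * w * g⁻¹) * c := by
        rw [hgw]
        calc c * (z * w) = (c * z) * w := by group
          _ = (z * c) * w := by rw [hcz]
          _ = z * (c * w) := by group
          _ = z * (w * c) := by rw [hcw]
          _ = z * w * c := by group
      calc g⁻¹ * c * g * w = g⁻¹ * (c * (g * w * g⁻¹)) * g := by group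
        _ = g⁻¹ * ((g * w * g⁻¹) * c) * g := by rw [e1]
        _ = w * (g⁻¹ * c * g) := by group
    have h2 := (hAGmem a).1 ha _ hc1
    calc c * (g * a * g⁻¹) = g * ((g⁻¹ * c * g) * a) * g⁻¹ := by group
      _ = g * (a * (g⁻¹ * c * g)) * g⁻¹ := by rw [h2]
      _ = g * a * g⁻¹ * c := by group
  have hpow : ∀ g : G, g ^ p ∈ AG := by
    intro g
    by_cases hgp : g ^ p ∈ center G
    · rw [hAGmem]
      intro c _
      exact mem_center_iff.1 hgp c
    · have hgZ : g ∉ center G := fun hc => hgp (pow_mem hc p)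
      have e1 : centralizer ({g} : Set G) = centralizer ({g ^ p} : Set G) :=
        h.centralizer_eq hgZ hgp (centralizer_le_of_mem_zpowers (pow_mem (mem_zpowers g) p))
      -- `(g * w) ^ p = g ^ p * z''`
      have hz'' : (g ^ p)⁻¹ * (g * w) ^ p ∈ center G := by
        rw [← QuotientGroup.eq, QuotientGroup.mk_pow, QuotientGroup.mk_pow, QuotientGroup.mk_mul]
        have hc : Commute (g : G ⧸ center G) (w : G ⧸ center G) :=
          mem_center_iff.1 hw₀c (g : G ⧸ center G)
        rw [hc.mul_pow, ← hw₀, pow_orderOf_eq_one, mul_one]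
      set z'' := (g ^ p)⁻¹ * (g * w) ^ p with hz''def
      have hgwp : (g * w) ^ p = g ^ p * z'' := by rw [hz''def]; group
      have hgwpZ : (g * w) ^ p ∉ center G := by
        intro hc
        apply hgp
        have e : g ^ p = (g * w) ^ p * z''⁻¹ := by rw [hgwp]; group
        rw [e]
        exact mul_mem hc (inv_mem hz'')
      have hgwZ : g * w ∉ center G := fun hc => hgwpZ (pow_mem hc p)
      have e2 : centralizer ({g * w} : Set G) = centralizer ({(g * w) ^ p} : Set G) :=
        h.centralizer_eq hgwZ hgwpZ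
          (centralizer_le_of_mem_zpowers (pow_mem (mem_zpowers (g * w)) p))
      have e3 : centralizer ({g * w} : Set G) = centralizer ({g} : Set G) := by
        rw [e2, hgwp, centralizer_mul_central hz'', ← e1]
      have hle : centralizer ({g} : Set G) ≤ centralizer ({w} : Set G) := by
        intro c hc
        have hc' : c ∈ centralizer ({g * w} : Set G) := by rw [e3]; exact hc
        rw [mem_centralizer_singleton_iff] at hc hc' ⊢
        have h3 : g * (c * w) = g * (w * c) := by
          calc g * (c * w) = (c * g) * w := by rw [hc]; group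
            _ = c * (g * w) := by group
            _ = g * w * c := hc'
            _ = g * (w * c) := by group
        exact mul_left_cancel h3
      have e4 : centralizer ({g} : Set G) = centralizer ({w} : Set G) :=
        h.centralizer_eq hgZ hwZ hle
      rw [hAGmem]
      intro c hc
      rw [← e4, mem_centralizer_singleton_iff] at hc
      have hcg : Commute c g := hc
      exact (hcg.pow_right p).eq
  refine ⟨AG.subgroupOf (P : Subgroup G), hAGnormal.subgroupOf _, ⟨⟨fun a b => ?_⟩⟩, ?_⟩
  · apply Subtype.ext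
    apply Subtype.ext
    exact hAGcomm _ (mem_subgroupOf.1 a.2) _ (mem_subgroupOf.1 b.2)
  · intro y
    rw [mem_subgroupOf, Subgroup.coe_pow]
    exact hpow (y : G)

end Cfsg.Agent.Helper68
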