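import Mathlib

set_option autoImplicit false

namespace Cfsg.Agent.Helper68

open Subgroup

variable {G : Type*} [Group G]

/-- A nontrivial-at-`p` normal subgroup contains a nonidentity element centralized by a given
Sylow `p`-subgroup. -/
theorem exists_central_in_normal [Finite G] (p : ℕ) [Fact p.Prime] (P : Sylow p G)
    (M : Subgroup G) [M.Normal] (hp : p ∣ Nat.card M) :
    ∃ x ∈ M, x ≠ 1 ∧ ∀ g ∈ (P : Subgroup G), g * x = x * g := by
  let P' : Subgroup (ConjAct G) := (P : Subgroup G).map (ConjAct.toConjAct (G := G)).toMonoidHom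
  have hP' : IsPGroup p P' := P.2.map _
  have hfix : (1 : M) ∈ MulAction.fixedPoints P' M := by
    intro g
    exact smul_one g
  obtain ⟨b, hb, hb1⟩ := hP'.exists_fixed_point_of_prime_dvd_card_of_fixed_point M hp hfix
  refine ⟨b, b.2, ?_, ?_⟩
  · intro h
    apply hb1
    exact (Subtype.ext h).symm
  · intro g hg
    have hg' : ConjAct.toConjAct g ∈ P' := ⟨g, hg, rfl⟩
    have h1 := hb ⟨ConjAct.toConjAct g, hg'⟩
    have h2 : ((ConjAct.toConjAct g • b : M) : G) = b := congrArg Subtype.val h1
    rw [ConjAct.Subgroup.val_conj_smul, ConjAct.smul_def, ConjAct.ofConjAct_toConjAct] at h2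
    calc g * b = g * b * g⁻¹ * g := by group
      _ = b * g := by rw [h2]

/-- If `q` divides the order of the normal subgroup `N₁` but not its index, then `N₁` has a
proper supplement (Frattini argument and Schur–Zassenhaus). -/
theorem exists_proper_supplement [Finite G] (N₁ : Subgroup G) [N₁.Normal] (q : ℕ) [Fact q.Prime]
    (hq : q ∣ Nat.card N₁) (hq' : ¬ q ∣ N₁.index) : ∃ K : Subgroup G, K ≠ ⊤ ∧ K ⊔ N₁ = ⊤ := by
  have hqp : q.Prime := Fact.out
  obtain ⟨Q⟩ : Nonempty (Sylow q N₁) := inferInstance
  set Q' : Subgroup G := (Q : Subgroup N₁).map N₁.subtype with hQ'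
  have hfr : normalizer (Q' : Set G) ⊔ N₁ = ⊤ := Sylow.normalizer_sup_eq_top Q
  by_cases hL : normalizer (Q' : Set G) = ⊤
  · have hQn : Q'.Normal := normalizer_eq_top_iff.1 hL
    have hcardQ : Nat.card Q' = q ^ (Nat.card N₁).factorization q := by
      rw [hQ', Subgroup.card_map_of_injective N₁.subtype_injective]
      exact Q.card_eq_multiplicity
    have hidx : Q'.index = (Q : Subgroup N₁).index * N₁.index := index_map_subtype _
    have hnd : ¬ q ∣ Q'.index := by
      rw [hidx, hqp.dvd_mul]
      rintro (h | h)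
      · exact Q.not_dvd_index h
      · exact hq' h
    have hcop : Nat.Coprime (Nat.card Q') Q'.index := by
      rw [hcardQ]
      exact Nat.Coprime.pow_left _ ((Nat.Prime.coprime_iff_not_dvd hqp).2 hnd)
    obtain ⟨K, hK⟩ := Subgroup.exists_right_complement'_of_coprime hcop
    refine ⟨K, ?_, ?_⟩
    · intro hKtop
      have h1 := hK.card_mul_card
      rw [hKtop, Subgroup.card_top] at h1
      have h2 : Nat.card Q' = 1 := by
        have hpos : 0 < Nat.card G := Nat.card_pos
        have : Nat.card Q' * Nat.card G = 1 * Nat.card G := by rw [h1, one_mul]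
        exact Nat.eq_of_mul_eq_mul_right hpos this
      rw [hcardQ] at h2
      have h3 : 0 < (Nat.card N₁).factorization q :=
        hqp.factorization_pos_of_dvd Nat.card_pos.ne' hq
      exact (Nat.one_lt_pow h3.ne' hqp.one_lt).ne' h2
    · have h1 : Q' ≤ N₁ := by
        rw [hQ']; exact map_subtype_le _
      have h2 := hK.sup_eq_top
      rw [eq_top_iff, ← h2]
      exact sup_le (h1.trans le_sup_right) le_sup_left
  · exact ⟨normalizer (Q' : Set G), hL, hfr⟩

end Cfsg.Agent.Helper68
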