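import Mathlib
import Cfsg.Agent.Helper24.Coprime
import Cfsg.Agent.Helper70.FrobComp2
import Cfsg.Agent.Helper68.Basic

set_option autoImplicit false

namespace Cfsg.Agent.Helper68

open Subgroup
open scoped commutatorElement

/-- conjugates of an element with `p`-power class size are conjugates by elements of any Sylow
`p`-subgroup -/
theorem exists_conj_eq_of_index_pow (p : ℕ) [Fact p.Prime] {G : Type*} [Group G] [Finite G]
    (P : Sylow p G) (x : G) (a : ℕ) (hxa : (centralizer ({x} : Set G)).index = p ^ a) (g : G) :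
    ∃ u ∈ (P : Subgroup G), g * x * g⁻¹ = u * x * u⁻¹ := by
  have hp : p.Prime := Fact.out
  set C := centralizer ({x} : Set G) with hC
  have hcardG : Nat.card C * p ^ a = Nat.card G := by rw [← hxa]; exact C.card_mul_index
  have hfac : (Nat.card G).factorization p = (Nat.card C).factorization p + a := by
    rw [← hcardG, Nat.factorization_mul Nat.card_pos.ne' (pow_ne_zero _ hp.ne_zero)]
    simp [hp.factorization_self]
  have hsub : conjOrbit (P : Subgroup G) x ⊆ conjOrbit ⊤ x := by
    rintro y ⟨u, hu, rfl⟩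
    exact ⟨u, mem_top u, rfl⟩
  have hc1 : Nat.card (conjOrbit (⊤ : Subgroup G) x) = p ^ a := by
    rw [card_conjOrbit_eq_index, ← hxa]
    exact relIndex_top_right _
  have hc2 : Nat.card (conjOrbit (P : Subgroup G) x) * Nat.card ↥((P : Subgroup G) ⊓ C) =
      Nat.card (P : Subgroup G) := card_conjOrbit_mul (P : Subgroup G) x
  have hc3 : Nat.card ↥((P : Subgroup G) ⊓ C) ∣ p ^ (Nat.card C).factorization p := by
    have hpg : IsPGroup p ↥((P : Subgroup G) ⊓ C) := P.2.to_le inf_le_left
    obtain ⟨k, hk⟩ := IsPGroup.iff_card.1 hpg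
    rw [hk]
    have hdvd : p ^ k ∣ Nat.card C := by
      rw [← hk]; exact Subgroup.card_dvd_of_le inf_le_right
    exact pow_dvd_pow p ((hp.pow_dvd_iff_le_factorization Nat.card_pos.ne').1 hdvd)
  have hc4 : p ^ a ≤ Nat.card (conjOrbit (P : Subgroup G) x) := by
    rw [P.card_eq_multiplicity, hfac, pow_add] at hc2
    have hle := Nat.le_of_dvd (pow_pos hp.pos _) hc3
    by_contra hlt
    rw [not_le] at hlt
    have : Nat.card (conjOrbit (P : Subgroup G) x) * Nat.card ↥((P : Subgroup G) ⊓ C) <
        p ^ (Nat.card C).factorization p * p ^ a := by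
      calc _ ≤ Nat.card (conjOrbit (P : Subgroup G) x) * p ^ (Nat.card C).factorization p :=
            Nat.mul_le_mul_left _ hle
        _ < p ^ a * p ^ (Nat.card C).factorization p :=
            Nat.mul_lt_mul_of_pos_right hlt (pow_pos hp.pos _)
        _ = _ := mul_comm _ _
    rw [hc2] at this
    exact lt_irrefl _ this
  have heq : conjOrbit (P : Subgroup G) x = conjOrbit ⊤ x := by
    apply Set.eq_of_subset_of_ncard_le hsub _ (Set.toFinite _)
    rw [← Nat.card_coe_set_eq, ← Nat.card_coe_set_eq, hc1]
    exact hc4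
  have hg : g * x * g⁻¹ ∈ conjOrbit (⊤ : Subgroup G) x := ⟨g, mem_top g, rfl⟩
  rw [← heq] at hg
  obtain ⟨u, hu, hux⟩ := hg
  exact ⟨u, hu, hux.symm⟩

open Cfsg.Agent.Helper24 in
/-- A `p'`-group `A` normalizing a `p`-group `P` and centralizing every element `x` of `P` with
`x ^ (p ^ 2) = 1` centralizes `P` (all primes `p`). -/
theorem le_centralizer_of_centralizes_omega_sq {G : Type*} [Group G] [Finite G] {p : ℕ}
    [Fact p.Prime] (A : Subgroup G) (hAcop : (Nat.card A).Coprime p) :
    ∀ (n : ℕ) (P : Subgroup G), Nat.card P ≤ n → IsPGroup p P →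
      A ≤ Subgroup.normalizer (P : Set G) →
      (∀ x ∈ P, x ^ (p ^ 2) = 1 → ∀ a ∈ A, a * x = x * a) →
      P ≤ Subgroup.centralizer (A : Set G) := by
  have hp : p.Prime := Fact.out
  intro n
  induction n with
  | zero =>
    intro P hn
    exact absurd hn (by have : 0 < Nat.card P := Nat.card_pos; omega)
  | succ n ih =>
    intro P hn hP hAP hΩ
    by_cases hP1 : P = ⊥
    · rw [hP1]; exact bot_le
    have hcop : (Nat.card A).Coprime (Nat.card P) := by
      obtain ⟨k, hk⟩ := IsPGroup.iff_card.mp hP
      rw [hk]; exact Nat.Coprime.pow_right k hAcop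
    have hPA : ⁅P, A⁆ ≤ P := Subgroup.le_normalizer_iff_commutator_le_left.mp hAP
    have ihM : ∀ M : Subgroup G, M < P → A ≤ Subgroup.normalizer (M : Set G) →
        M ≤ Subgroup.centralizer (A : Set G) := by
      intro M hM hAM
      exact ih M (by have := card_lt_card_of_lt hM; omega) (hP.to_le hM.le) hAM
        (fun x hx => hΩ x (hM.le hx))
    by_cases hlt : ⁅P, A⁆ < P
    · exact le_centralizer_of_commutator_le_centralizer hAP hcop
        (ihM _ hlt (Subgroup.normalizer_commutator_ge_right P A))
    have hPAeq : ⁅P, A⁆ = P := by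
      by_contra hne; exact hlt (lt_of_le_of_ne hPA hne)
    set M : Subgroup G := agemoComm p P with hMdef
    have hMP : M < P := agemoComm_lt hP hP1
    have hAM : A ≤ Subgroup.normalizer (M : Set G) :=
      hAP.trans (normalizer_le_normalizer_agemoComm p P)
    have hPM : P ≤ Subgroup.normalizer (M : Set G) :=
      Subgroup.le_normalizer.trans (normalizer_le_normalizer_agemoComm p P)
    have hMcA : M ≤ Subgroup.centralizer (A : Set G) := ihM M hMP hAM
    have hMcP : M ≤ Subgroup.centralizer (P : Set G) := by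
      have hMA : ⁅M, A⁆ = ⊥ := Subgroup.commutator_eq_bot_iff_le_centralizer.mpr hMcA
      have h1 : ⁅⁅A, M⁆, P⁆ = ⊥ := by
        rw [Subgroup.commutator_comm A M, hMA, Subgroup.commutator_bot_left]
      have h2 : ⁅⁅M, P⁆, A⁆ = ⊥ := by
        have h : ⁅M, P⁆ ≤ M := Subgroup.le_normalizer_iff_commutator_le_left.mp hPM
        rw [← le_bot_iff, ← hMA]; exact Subgroup.commutator_mono h le_rfl
      have h3 : ⁅⁅P, A⁆, M⁆ = ⊥ := Subgroup.commutator_commutator_eq_bot_of_rotate h1 h2
      rw [hPAeq, Subgroup.commutator_comm] at h3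
      exact Subgroup.commutator_eq_bot_iff_le_centralizer.mp h3
    intro x hx
    rw [Subgroup.mem_centralizer_iff]
    intro a ha
    set y := a * x⁻¹ * a⁻¹ with hy
    have hyP : y ∈ P := (Subgroup.mem_normalizer_iff.mp (hAP ha) x⁻¹).mp (P.inv_mem hx)
    have hw : ⁅x, a⁆ = x * y := by simp [hy, commutatorElement_def, mul_assoc]
    have hzM : ⁅y, x⁆ ∈ M := commutator_mem_agemoComm p hyP hx
    have hzx : Commute ⁅y, x⁆ x := (Subgroup.mem_centralizer_iff.mp (hMcP hzM) x hx).symm
    have hzy : Commute ⁅y, x⁆ y := (Subgroup.mem_centralizer_iff.mp (hMcP hzM) y hyP).symm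
    have hzp : ⁅y, x⁆ ^ p = 1 := by
      rw [← commutator_pow_left_of_commute x y hzy p, commutatorElement_eq_one_iff_mul_comm]
      exact (Subgroup.mem_centralizer_iff.mp (hMcP (pow_mem_agemoComm p hyP)) x hx).symm
    have hyp : y ^ p = (x ^ p)⁻¹ := by
      have h1 : y ^ p = a * (x ^ p)⁻¹ * a⁻¹ := by
        rw [hy, conj_pow, inv_pow]
      have h2 : a * (x ^ p)⁻¹ = (x ^ p)⁻¹ * a := by
        have := Subgroup.mem_centralizer_iff.mp (hMcA (M.inv_mem (pow_mem_agemoComm p hx))) a ha
        exact this
      rw [h1, h2]; group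
    have hwp : ⁅x, a⁆ ^ p = ⁅y, x⁆ ^ (p.choose 2) := by
      rw [hw, mul_pow_of_commutator_commute x y hzx hzy p, hyp]; group
    have hwpp : ⁅x, a⁆ ^ (p ^ 2) = 1 := by
      rw [pow_two, pow_mul, hwp, ← pow_mul, mul_comm, pow_mul, hzp, one_pow]
    have hwP : ⁅x, a⁆ ∈ P := by rw [hw]; exact P.mul_mem hx hyP
    have hwa : ⁅x, a⁆ * a = a * ⁅x, a⁆ := (hΩ _ hwP hwpp a ha).symm
    exact (comm_of_commutator_comm x a _ _ hcop (pow_card_eq_one_of_mem ha)
      (pow_card_eq_one_of_mem hwP) hwa).symm

universe u

/-- If every element of order `p` (and `4` when `p = 2`) has a class of `p`-power size, then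
Frobenius' condition holds. -/
theorem frobCond_of_class_pow {G : Type u} [Group G] [Finite G] (p : ℕ) [Fact p.Prime]
    (h : ∀ x : G, (orderOf x = p ∨ (p = 2 ∧ orderOf x = 4)) →
      ∃ a : ℕ, (centralizer ({x} : Set G)).index = p ^ a) :
    Cfsg.Agent.Helper70.FrobCond p G := by
  have hp : p.Prime := Fact.out
  set e : ℕ := if p = 2 then 4 else p with he
  -- elements with `x ^ e = 1`, `x ≠ 1`, satisfy the hypothesis
  have hS : ∀ x : G, x ^ e = 1 → x ≠ 1 →
      ∃ a : ℕ, (centralizer ({x} : Set G)).index = p ^ a := by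
    intro x hxe hx1
    apply h
    by_cases hp2 : p = 2
    · rw [he, if_pos hp2] at hxe
      have hd : orderOf x ∣ 2 ^ 2 := orderOf_dvd_of_pow_eq_one hxe
      obtain ⟨k, hk, hk2⟩ := (Nat.dvd_prime_pow Nat.prime_two).1 hd
      interval_cases k
      · exact absurd (orderOf_eq_one_iff.1 (by simpa using hk2)) hx1
      · left; rw [hp2]; simpa using hk2
      · right; exact ⟨hp2, by simpa using hk2⟩
    · rw [he, if_neg hp2] at hxe
      left
      have hd : orderOf x ∣ p := orderOf_dvd_of_pow_eq_one hxe
      rcases (Nat.dvd_prime hp).1 hd with h1 | h1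
      · exact absurd (orderOf_eq_one_iff.1 h1) hx1
      · exact h1
  -- the Ω-lemma for exponent `e`
  have hΩ : ∀ (A : Subgroup G), (Nat.card A).Coprime p → ∀ (P : Subgroup G), IsPGroup p P →
      A ≤ normalizer (P : Set G) → (∀ x ∈ P, x ^ e = 1 → ∀ a ∈ A, a * x = x * a) →
      P ≤ centralizer (A : Set G) := by
    intro A hA P hP hAP hx
    by_cases hp2 : p = 2
    · apply le_centralizer_of_centralizes_omega_sq A hA _ P le_rfl hP hAP
      intro x hxP hx2
      apply hx x hxP
      rw [he, if_pos hp2]
      rw [hp2] at hx2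
      simpa using hx2
    · apply Cfsg.Agent.Helper24.le_centralizer_of_odd_of_centralizes_omega hp2 A hA _ P le_rfl hP hAP
      intro x hxP hxp
      apply hx x hxP
      rw [he, if_neg hp2]; exact hxp
  have main : ∀ (n : ℕ) (Q : Subgroup G), Nat.card Q ≤ n → IsPGroup p Q →
      ∀ g ∈ normalizer (Q : Set G), (orderOf g).Coprime p → g ∈ centralizer (Q : Set G) := by
    intro n
    induction n with
    | zero =>
      intro Q hn
      exact absurd hn (by have : 0 < Nat.card Q := Nat.card_pos; omega)
    | succ n ih =>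
      intro Q hn hQ g hg hcop
      set A := zpowers g with hA
      have hAcard : (Nat.card A).Coprime p := by rw [hA, Nat.card_zpowers]; exact hcop
      have hAQ : A ≤ normalizer (Q : Set G) := zpowers_le.2 hg
      suffices hsuff : Q ≤ centralizer (A : Set G) by
        rw [mem_centralizer_iff]
        intro q hq
        exact ((mem_centralizer_iff.1 (hsuff hq)) g (mem_zpowers g)).symm
      have ihM : ∀ M : Subgroup G, M < Q → A ≤ normalizer (M : Set G) →
          M ≤ centralizer (A : Set G) := by
        intro M hM hAM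
        have hgM : g ∈ centralizer (M : Set G) :=
          ih M (by have := Cfsg.Agent.Helper24.card_lt_card_of_lt hM; omega) (hQ.to_le hM.le) g
            (hAM (mem_zpowers g)) hcop
        intro m hm
        rw [mem_centralizer_iff]
        intro a ha
        obtain ⟨k, rfl⟩ := mem_zpowers_iff.1 ha
        have hc : Commute m g := (mem_centralizer_iff.1 hgM) m hm
        exact (hc.zpow_right k).eq.symm
      have hcopQ : (Nat.card A).Coprime (Nat.card Q) := by
        obtain ⟨k, hk⟩ := IsPGroup.iff_card.1 hQ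
        rw [hk]; exact Nat.Coprime.pow_right k hAcard
      have hQA : ⁅Q, A⁆ ≤ Q := le_normalizer_iff_commutator_le_left.mp hAQ
      by_cases hlt : ⁅Q, A⁆ < Q
      · exact Cfsg.Agent.Helper24.le_centralizer_of_commutator_le_centralizer hAQ hcopQ
          (ihM _ hlt (normalizer_commutator_ge_right Q A))
      have hQAeq : ⁅Q, A⁆ = Q := by
        by_contra hne; exact hlt (lt_of_le_of_ne hQA hne)
      set Ω : Subgroup G := closure {x | x ∈ Q ∧ x ^ e = 1} with hΩdef
      have hΩQ : Ω ≤ Q := by
        rw [hΩdef, closure_le]; intro x hx; exact hx.1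
      have hconjΩ : ∀ c ∈ normalizer (Q : Set G), ∀ w ∈ Ω, c * w * c⁻¹ ∈ Ω := by
        intro c hc w hw
        have hle : Ω ≤ Ω.comap (MulAut.conj c).toMonoidHom := by
          rw [hΩdef, closure_le]
          rintro x ⟨hxQ, hxe⟩
          rw [SetLike.mem_coe, mem_comap]
          show c * x * c⁻¹ ∈ closure {x | x ∈ Q ∧ x ^ e = 1}
          refine subset_closure ⟨(mem_normalizer_iff.1 hc x).1 hxQ, ?_⟩
          rw [conj_pow, hxe]; group
        exact hle hw
      have hAΩ : A ≤ normalizer (Ω : Set G) := by
        intro a ha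
        apply Cfsg.Agent.Helper24.mem_normalizer_of_conj_mem
        · exact hconjΩ a (hAQ ha)
        · intro w hw
          have := hconjΩ a⁻¹ (inv_mem (hAQ ha)) w hw
          rwa [inv_inv] at this
      by_cases hΩlt : Ω < Q
      · have hΩc := ihM Ω hΩlt hAΩ
        apply hΩ A hAcard Q hQ hAQ
        intro x hxQ hxe a ha
        exact (mem_centralizer_iff.1 (hΩc (subset_closure ⟨hxQ, hxe⟩))) a ha
      have hΩeq : Ω = Q := by
        by_contra hne; exact hΩlt (lt_of_le_of_ne hΩQ hne)
      have hQbot : Q = ⊥ := by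
        obtain ⟨P, hQP⟩ := hQ.exists_le_sylow
        have hdesc : ∀ (m : ℕ) (L : Subgroup G), Nat.card L ≤ m → L ≤ (P : Subgroup G) →
            (P : Subgroup G) ≤ normalizer (L : Set G) → Q ≤ L → Q = ⊥ := by
          intro m
          induction m with
          | zero =>
            intro L hL
            exact absurd hL (by have : 0 < Nat.card L := Nat.card_pos; omega)
          | succ m ihm =>
            intro L hLm hLP hPL hQL
            by_cases hL1 : L = ⊥
            · rw [hL1] at hQL; exact le_bot_iff.1 hQL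
            have hlt' : ⁅L, (P : Subgroup G)⁆ < L :=
              Cfsg.Agent.Helper24.commutator_lt_of_isPGroup (P.2.to_le hLP) P.2 hPL hL1
            have hPK : (P : Subgroup G) ≤ normalizer ((⁅L, (P : Subgroup G)⁆ : Subgroup G) : Set G) :=
              (le_inf hPL le_normalizer).trans
                (Cfsg.Agent.Helper24.normalizer_inf_le_normalizer_commutator L P)
            apply ihm ⁅L, (P : Subgroup G)⁆
              (by have := Cfsg.Agent.Helper24.card_lt_card_of_lt hlt'; omega) (hlt'.le.trans hLP) hPK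
            rw [← hQAeq, commutator_le]
            intro q hq a ha
            have hq' : q ∈ Ω := by rw [hΩeq]; exact hq
            have key : q ∈ (P : Subgroup G) ∧ ⁅q, a⁆ ∈ ⁅L, (P : Subgroup G)⁆ := by
              refine closure_induction
                (p := fun q _ => q ∈ (P : Subgroup G) ∧ ⁅q, a⁆ ∈ ⁅L, (P : Subgroup G)⁆)
                ?_ ?_ ?_ ?_ hq'
              · rintro x ⟨hxQ, hxe⟩
                refine ⟨hQP hxQ, ?_⟩
                by_cases hx1 : x = 1
                · rw [hx1, commutatorElement_one_left]; exact one_mem _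
                · obtain ⟨b, hb⟩ := hS x hxe hx1
                  obtain ⟨u, hu, hux⟩ := exists_conj_eq_of_index_pow p P x b hb a
                  have e1 : ⁅x, a⁆ = x * (a * x * a⁻¹)⁻¹ := by
                    rw [commutatorElement_def]; group
                  have e2 : ⁅x, u⁆ = x * (u * x * u⁻¹)⁻¹ := by
                    rw [commutatorElement_def]; group
                  rw [e1, hux, ← e2]
                  exact commutator_mem_commutator (hQL hxQ) hu
              · exact ⟨one_mem _, by rw [commutatorElement_one_left]; exact one_mem _⟩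
              · rintro x y _ _ ⟨hxP, hxc⟩ ⟨hyP, hyc⟩
                refine ⟨mul_mem hxP hyP, ?_⟩
                have e1 : ⁅x * y, a⁆ = x * ⁅y, a⁆ * x⁻¹ * ⁅x, a⁆ := by
                  simp only [commutatorElement_def]; group
                rw [e1]
                exact mul_mem ((mem_normalizer_iff.1 (hPK hxP) _).1 hyc) hxc
              · rintro x _ ⟨hxP, hxc⟩
                refine ⟨inv_mem hxP, ?_⟩
                have e1 : ⁅x⁻¹, a⁆ = x⁻¹ * (⁅x, a⁆)⁻¹ * x⁻¹⁻¹ := by
                  simp only [commutatorElement_def]; group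
                rw [e1]
                exact (mem_normalizer_iff.1 (hPK (inv_mem hxP)) _).1 (inv_mem hxc)
            exact key.2
        exact hdesc _ (P : Subgroup G) le_rfl le_rfl le_normalizer hQP
      rw [hQbot]; exact bot_le
  intro Q hQ g hg hcop
  exact main _ Q le_rfl hQ g hg hcop

end Cfsg.Agent.Helper68
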