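/-
Helper library of seat helper68: groups with abelian central quotient in which
`C(x ^ k) = C(x)` whenever `x ^ k` is not central have central quotient of prime exponent.
-/
import Mathlib

set_option autoImplicit false

namespace Cfsg.Agent.Helper68

open Subgroup

section PowCent

variable {G : Type*} [Group G]

/-- Abelian central quotient: every non-central element has a prime power in the centre. -/
theorem exists_prime_pow_mem_center_of_powCent [Finite G]
    (hP : ∀ x : G, ∀ k : ℕ, x ^ k ∉ center G → ∀ g : G, g * x ^ k = x ^ k * g → g * x = x * g)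
    (hab : ∀ a b : G ⧸ center G, a * b = b * a) (x : G) (hx : x ∉ center G) :
    ∃ q : ℕ, q.Prime ∧ x ^ q ∈ center G := by
  obtain ⟨g, hg⟩ : ∃ g, g ∉ centralizer ({x} : Set G) := by
    by_contra hcon
    apply hx
    rw [Subgroup.mem_center_iff]
    intro g
    by_contra hg
    apply hcon
    refine ⟨g, fun hg' => hg ?_⟩
    exact Subgroup.mem_centralizer_singleton_iff.mp hg'
  have hcomm : ∀ a b : G, a * b * a⁻¹ * b⁻¹ ∈ center G := by
    intro a b
    have := hab (QuotientGroup.mk b⁻¹) (QuotientGroup.mk a⁻¹)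
    rw [← QuotientGroup.mk_mul, ← QuotientGroup.mk_mul, QuotientGroup.eq] at this
    have e : a * b * a⁻¹ * b⁻¹ = (b⁻¹ * a⁻¹)⁻¹ * (a⁻¹ * b⁻¹) := by group
    rw [e]; exact this
  -- conjugation identities for a central commutator
  have I1 : ∀ (g' : G) (n : ℕ), g' * x ^ n * g'⁻¹ = (g' * x * g'⁻¹ * x⁻¹) ^ n * x ^ n := by
    intro g' n
    have hz : Commute (g' * x * g'⁻¹ * x⁻¹) x :=
      ((Subgroup.mem_center_iff.mp (hcomm g' x)) x).symm
    rw [← hz.mul_pow, ← conj_pow]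
    congr 1
    group
  have I2 : ∀ j : ℕ, g ^ j * x * (g ^ j)⁻¹ = (g * x * g⁻¹ * x⁻¹) ^ j * x := by
    intro j
    induction j with
    | zero => simp
    | succ j ih =>
      have hzj : ∀ w : G, (g * x * g⁻¹ * x⁻¹) ^ j * w = w * (g * x * g⁻¹ * x⁻¹) ^ j := by
        intro w
        exact ((Subgroup.mem_center_iff.mp (Subgroup.pow_mem _ (hcomm g x) j)) w).symm
      have e : g ^ (j + 1) * x * (g ^ (j + 1))⁻¹ = g * (g ^ j * x * (g ^ j)⁻¹) * g⁻¹ := by
        rw [pow_succ']; group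
      rw [e, ih, pow_succ]
      have e2 : g * ((g * x * g⁻¹ * x⁻¹) ^ j * x) * g⁻¹
          = g * (g * x * g⁻¹ * x⁻¹) ^ j * (x * g⁻¹) := by group
      rw [e2, ← hzj g]
      group
  have hz1 : g * x * g⁻¹ * x⁻¹ ≠ 1 := by
    intro h1
    apply hg
    rw [Subgroup.mem_centralizer_singleton_iff]
    have : g * x = (g * x * g⁻¹ * x⁻¹) * x * g := by group
    rw [this, h1, one_mul]
  have hk1 : orderOf (g * x * g⁻¹ * x⁻¹) ≠ 1 := by rwa [Ne, orderOf_eq_one_iff]
  have hk0 : orderOf (g * x * g⁻¹ * x⁻¹) ≠ 0 := (orderOf_pos _).ne'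
  have hq : (orderOf (g * x * g⁻¹ * x⁻¹)).minFac.Prime := Nat.minFac_prime hk1
  have hqd : (orderOf (g * x * g⁻¹ * x⁻¹)).minFac ∣ orderOf (g * x * g⁻¹ * x⁻¹) :=
    Nat.minFac_dvd _
  have ho := orderOf_pow_orderOf_div hk0 hqd
  generalize (orderOf (g * x * g⁻¹ * x⁻¹)).minFac = q at hq hqd ho
  generalize hj : orderOf (g * x * g⁻¹ * x⁻¹) / q = j at ho
  refine ⟨q, hq, ?_⟩
  by_contra hxq
  have hzj : g ^ j * x * (g ^ j)⁻¹ * x⁻¹ = (g * x * g⁻¹ * x⁻¹) ^ j := by
    rw [I2 j, mul_inv_cancel_right]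
  have hgj : g ^ j ∈ centralizer ({x ^ q} : Set G) := by
    rw [Subgroup.mem_centralizer_singleton_iff]
    have h3 := I1 (g ^ j) q
    rw [hzj, ← ho, pow_orderOf_eq_one, one_mul] at h3
    have : g ^ j * x ^ q = (g ^ j * x ^ q * (g ^ j)⁻¹) * g ^ j := by group
    rw [this]
    rw [ho] at h3
    rw [h3]
  replace hgj : g ^ j * x = x * g ^ j :=
    hP x q hxq (g ^ j) (Subgroup.mem_centralizer_singleton_iff.mp hgj)
  have : (g * x * g⁻¹ * x⁻¹) ^ j = 1 := by
    rw [← hzj, hgj]; group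
  rw [this, orderOf_one] at ho
  exact hq.one_lt.ne ho

/-- Abelian central quotient: `G/Z(G)` has prime exponent. -/
theorem exists_prime_forall_pow_eq_one_of_powCent [Finite G]
    (hP : ∀ x : G, ∀ k : ℕ, x ^ k ∉ center G → ∀ g : G, g * x ^ k = x ^ k * g → g * x = x * g)
    (hab : ∀ a b : G ⧸ center G, a * b = b * a) (hnc : ∃ x : G, x ∉ center G) :
    ∃ p : ℕ, p.Prime ∧ ∀ a : G ⧸ center G, a ^ p = 1 := by
  obtain ⟨x₁, hx₁⟩ := hnc
  obtain ⟨p, hp, hx₁p⟩ := exists_prime_pow_mem_center_of_powCent hP hab x₁ hx₁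
  refine ⟨p, hp, ?_⟩
  intro a
  obtain ⟨y, rfl⟩ := QuotientGroup.mk_surjective a
  by_cases hy : y ∈ center G
  · rw [(QuotientGroup.eq_one_iff y).mpr hy, one_pow]
  obtain ⟨q, hq, hyq⟩ := exists_prime_pow_mem_center_of_powCent hP hab y hy
  by_cases hpq : q = p
  · rw [← hpq, ← QuotientGroup.mk_pow]
    exact (QuotientGroup.eq_one_iff _).mpr hyq
  exfalso
  have := Fact.mk hp
  have := Fact.mk hq
  have ho1 : orderOf (QuotientGroup.mk x₁ : G ⧸ center G) = p :=
    orderOf_eq_prime (by rw [← QuotientGroup.mk_pow]; exact (QuotientGroup.eq_one_iff _).mpr hx₁p)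
      (fun h1 => hx₁ ((QuotientGroup.eq_one_iff _).mp h1))
  have ho2 : orderOf (QuotientGroup.mk y : G ⧸ center G) = q :=
    orderOf_eq_prime (by rw [← QuotientGroup.mk_pow]; exact (QuotientGroup.eq_one_iff _).mpr hyq)
      (fun h1 => hy ((QuotientGroup.eq_one_iff _).mp h1))
  have hcop : (orderOf (QuotientGroup.mk x₁ : G ⧸ center G)).Coprime
      (orderOf (QuotientGroup.mk y : G ⧸ center G)) := by
    rw [ho1, ho2]
    exact (Nat.coprime_primes hp hq).mpr (Ne.symm hpq)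
  have ho3 : orderOf ((QuotientGroup.mk x₁ : G ⧸ center G) * QuotientGroup.mk y) = p * q := by
    rw [(show Commute (QuotientGroup.mk x₁ : G ⧸ center G) (QuotientGroup.mk y) from
      hab _ _).orderOf_mul_eq_mul_orderOf_of_coprime hcop, ho1, ho2]
  have hw : x₁ * y ∉ center G := by
    intro hw
    have h1 : ((QuotientGroup.mk x₁ : G ⧸ center G) * QuotientGroup.mk y) = 1 := by
      rw [← QuotientGroup.mk_mul]
      exact (QuotientGroup.eq_one_iff _).mpr hw
    rw [h1, orderOf_one] at ho3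
    have := hp.two_le
    have := hq.two_le
    nlinarith
  obtain ⟨r, hr, hwr⟩ := exists_prime_pow_mem_center_of_powCent hP hab (x₁ * y) hw
  have h1 : ((QuotientGroup.mk x₁ : G ⧸ center G) * QuotientGroup.mk y) ^ r = 1 := by
    rw [← QuotientGroup.mk_mul, ← QuotientGroup.mk_pow]
    exact (QuotientGroup.eq_one_iff _).mpr hwr
  have hdvd := orderOf_dvd_of_pow_eq_one h1
  rw [ho3] at hdvd
  have h2 : p ∣ r := Dvd.dvd.trans (dvd_mul_right p q) hdvd
  have h3 : q ∣ r := Dvd.dvd.trans (dvd_mul_left q p) hdvd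
  have e1 := (Nat.prime_dvd_prime_iff_eq hp hr).mp h2
  have e2 := (Nat.prime_dvd_prime_iff_eq hq hr).mp h3
  exact hpq (e2.trans e1.symm)

end PowCent

end Cfsg.Agent.Helper68
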