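/-
Helper library of seat helper68: a group `Γ` acting on a finite group `H` such that the inner
automorphisms are induced by `Γ` and the stabilizer of every nonidentity element is a maximal
subgroup of `Γ` (the "relative" version of maximal centralizers).
-/
import Mathlib
import Cfsg.Agent.Helper29.FrobConj
import Cfsg.Agent.Helper23.Trans
import Cfsg.Agent.Helper35.CoprimeGen
import Cfsg.Agent.Helper68.MaxCent

set_option autoImplicit false

namespace Cfsg.Agent.Helper68

open Subgroup
open scoped Pointwise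

section Counting

/-- Counting: if the centralizer of every element of order `p` is a nonabelian Sylow
`p`-subgroup, there are few elements of order `p`. -/
theorem card_order_mul_sq_le_of_sylow_cent {H : Type*} [Group H] [Finite H] (p : ℕ)
    [Fact p.Prime]
    (hex : ∀ x : H, orderOf x = p →
      ∃ P : Sylow p H, (P : Subgroup H) = centralizer ({x} : Set H))
    (hna : ∀ x : H, orderOf x = p → ∃ a ∈ centralizer ({x} : Set H),
      ∃ b ∈ centralizer ({x} : Set H), a * b ≠ b * a) :
    Nat.card {x : H // orderOf x = p} * p ^ 2 ≤ Nat.card H := by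
  classical
  have := Fintype.ofFinite H
  have := Fintype.ofFinite (Sylow p H)
  have hpp : p.Prime := Fact.out
  let f : H → Sylow p H :=
    fun x => if hx : orderOf x = p then Classical.choose (hex x hx) else default
  have hf : ∀ x, orderOf x = p → ((f x : Sylow p H) : Subgroup H) = centralizer ({x} : Set H) := by
    intro x hx
    simp only [f, dif_pos hx]
    exact Classical.choose_spec (hex x hx)
  have hcount : (Finset.univ.filter (fun x : H => orderOf x = p)).card =
      ∑ P : Sylow p H, ((Finset.univ.filter (fun x : H => orderOf x = p)).filter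
        (fun x => f x = P)).card :=
    Finset.card_eq_sum_card_fiberwise (fun x _ => Finset.mem_univ _)
  have hfib : ∀ P : Sylow p H, ((Finset.univ.filter (fun x : H => orderOf x = p)).filter
      (fun x => f x = P)).card * p ^ 2 ≤ p ^ (Nat.card H).factorization p := by
    intro P
    by_cases hem : ((Finset.univ.filter (fun x : H => orderOf x = p)).filter
      (fun x => f x = P)) = ∅
    · rw [hem]; simp
    obtain ⟨x₁, hx₁⟩ := Finset.nonempty_iff_ne_empty.mpr hem
    rw [Finset.mem_filter, Finset.mem_filter] at hx₁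
    have hx₁o : orderOf x₁ = p := hx₁.1.2
    have hP : (P : Subgroup H) = centralizer ({x₁} : Set H) := hx₁.2 ▸ hf x₁ hx₁o
    have hx₁1 : x₁ ≠ 1 := by
      rintro rfl
      rw [orderOf_one] at hx₁o
      exact hpp.one_lt.ne hx₁o
    obtain ⟨a, ha, b, hb, hab⟩ := hna x₁ hx₁o
    have hcardP : Nat.card (P : Subgroup H) = p ^ (Nat.card H).factorization p :=
      P.card_eq_multiplicity
    have hidx := Subgroup.card_mul_index (center (P : Subgroup H))
    obtain ⟨k, hk⟩ := (P.isPGroup').index (center (P : Subgroup H))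
    have hk2 : 2 ≤ k := by
      by_contra hk2
      have hk01 : k = 0 ∨ k = 1 := by omega
      rcases hk01 with rfl | rfl
      · rw [pow_zero, Subgroup.index_eq_one] at hk
        apply hab
        have h1 : (⟨a, hP ▸ ha⟩ : (P : Subgroup H)) ∈ center (P : Subgroup H) :=
          hk ▸ Subgroup.mem_top _
        have h2 := Subgroup.mem_center_iff.mp h1 ⟨b, hP ▸ hb⟩
        exact (congrArg (fun t : (P : Subgroup H) => (t : H)) h2).symm
      · rw [pow_one] at hk
        have : IsCyclic ((P : Subgroup H) ⧸ center (P : Subgroup H)) :=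
          isCyclic_of_prime_card (p := p) (by rw [← Subgroup.index_eq_card, hk])
        have hc := (MonoidHom.isMulCommutative_of_isCyclic_of_ker_le_center
          (QuotientGroup.mk' (center (P : Subgroup H))) (by rw [QuotientGroup.ker_mk']))
        apply hab
        exact congrArg (fun t : (P : Subgroup H) => (t : H))
          (hc.is_comm.comm ⟨a, hP ▸ ha⟩ ⟨b, hP ▸ hb⟩)
    have hle : ((Finset.univ.filter (fun x : H => orderOf x = p)).filter
        (fun x => f x = P)).card ≤ Nat.card (center (P : Subgroup H)) := by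
      have := Fintype.ofFinite (center (P : Subgroup H))
      rw [Nat.card_eq_fintype_card, ← Finset.card_univ]
      calc _ ≤ (Finset.univ.image
            (fun z : center (P : Subgroup H) => ((z : (P : Subgroup H)) : H))).card :=
            Finset.card_le_card (by
              intro x hx
              rw [Finset.mem_filter, Finset.mem_filter] at hx
              have hxP : (P : Subgroup H) = centralizer ({x} : Set H) := hx.2 ▸ hf x hx.1.2
              have hxmem : x ∈ (P : Subgroup H) :=
                hxP ▸ Subgroup.mem_centralizer_singleton_iff.mpr rfl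
              rw [Finset.mem_image]
              refine ⟨⟨⟨x, hxmem⟩, ?_⟩, Finset.mem_univ _, rfl⟩
              rw [Subgroup.mem_center_iff]
              intro g
              have hg : (g : H) ∈ centralizer ({x} : Set H) := hxP ▸ g.2
              exact Subtype.ext (Subgroup.mem_centralizer_singleton_iff.mp hg))
        _ ≤ Finset.univ.card := Finset.card_image_le
    calc _ ≤ Nat.card (center (P : Subgroup H)) * p ^ 2 := Nat.mul_le_mul_right _ hle
      _ ≤ Nat.card (center (P : Subgroup H)) * p ^ k :=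
          Nat.mul_le_mul_left _ (Nat.pow_le_pow_right hpp.pos hk2)
      _ = p ^ (Nat.card H).factorization p := by rw [← hk, hidx, hcardP]
  have hsyl : Nat.card (Sylow p H) * p ^ (Nat.card H).factorization p ≤ Nat.card H := by
    have P : Sylow p H := default
    have h1 := P.card_dvd_index
    have h2 := Subgroup.card_mul_index (P : Subgroup H)
    rw [P.card_eq_multiplicity] at h2
    have hpos : 0 < (P : Subgroup H).index := Nat.pos_of_ne_zero (Subgroup.index_ne_zero_of_finite)
    have h3 : Nat.card (Sylow p H) ≤ (P : Subgroup H).index := Nat.le_of_dvd hpos h1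
    calc _ ≤ (P : Subgroup H).index * p ^ (Nat.card H).factorization p :=
          Nat.mul_le_mul_right _ h3
      _ = Nat.card H := by rw [mul_comm]; exact h2
  calc Nat.card {x : H // orderOf x = p} * p ^ 2
      = (Finset.univ.filter (fun x : H => orderOf x = p)).card * p ^ 2 := by
        rw [Nat.card_eq_fintype_card, Fintype.card_subtype]
    _ = ∑ P : Sylow p H, ((Finset.univ.filter (fun x : H => orderOf x = p)).filter
        (fun x => f x = P)).card * p ^ 2 := by rw [hcount, Finset.sum_mul]
    _ ≤ ∑ _P : Sylow p H, p ^ (Nat.card H).factorization p :=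
        Finset.sum_le_sum (fun P _ => hfib P)
    _ = Nat.card (Sylow p H) * p ^ (Nat.card H).factorization p := by
        rw [Finset.sum_const, Finset.card_univ, smul_eq_mul,
          ← Nat.card_eq_fintype_card (α := Sylow p H)]
    _ ≤ Nat.card H := hsyl

/-- Counting: a nontrivial group of odd order in which all nonidentity elements have prime
order cannot have at most `|H| / p ^ 2` elements of order `p` for every prime `p`. -/
theorem false_of_prime_orders_of_count {H : Type*} [Group H] [Finite H] [Nontrivial H]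
    (hprime : ∀ x : H, x ≠ 1 → (orderOf x).Prime) (hno2 : ¬ 2 ∣ Nat.card H)
    (hcnt : ∀ p : ℕ, p.Prime → Nat.card {x : H // orderOf x = p} * p ^ 2 ≤ Nat.card H) :
    False := by
  classical
  have := Fintype.ofFinite H
  have hN2 : 2 ≤ Nat.card H := Finite.one_lt_card
  have hcount : (Finset.univ.erase (1 : H)).card = ∑ p ∈ (Nat.card H).primeFactors,
      ((Finset.univ.erase (1 : H)).filter (fun x => orderOf x = p)).card := by
    apply Finset.card_eq_sum_card_fiberwise
    intro x hx
    have hx1 : x ≠ 1 := Finset.ne_of_mem_erase hx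
    exact Nat.mem_primeFactors.mpr ⟨hprime x hx1, orderOf_dvd_natCard x, Nat.card_pos.ne'⟩
  have hcard1 : (Finset.univ.erase (1 : H)).card = Nat.card H - 1 := by
    rw [Finset.card_erase_of_mem (Finset.mem_univ _), Finset.card_univ, Nat.card_eq_fintype_card]
  have hterm : ∀ p ∈ (Nat.card H).primeFactors,
      (((Finset.univ.erase (1 : H)).filter (fun x => orderOf x = p)).card : ℚ) ≤
        (Nat.card H : ℚ) * (1 / (p : ℚ) ^ 2) := by
    intro p hp
    have hpp : p.Prime := (Nat.mem_primeFactors.mp hp).1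
    have := Fact.mk hpp
    have h1 := hcnt p hpp
    rw [Nat.card_eq_fintype_card (α := {x : H // orderOf x = p}), Fintype.card_subtype] at h1
    have h2 : ((Finset.univ.erase (1 : H)).filter (fun x => orderOf x = p)).card ≤
        (Finset.univ.filter (fun x : H => orderOf x = p)).card :=
      Finset.card_le_card (Finset.filter_subset_filter _ (Finset.erase_subset _ _))
    have h3 : ((Finset.univ.erase (1 : H)).filter (fun x => orderOf x = p)).card * p ^ 2 ≤
        Nat.card H := le_trans (Nat.mul_le_mul_right _ h2) h1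
    have hp0 : (0 : ℚ) < (p : ℚ) ^ 2 := by
      have : (0 : ℚ) < (p : ℚ) := by exact_mod_cast hpp.pos
      positivity
    rw [mul_one_div, le_div_iff₀ hp0]
    exact_mod_cast h3
  have hsub : (Nat.card H).primeFactors ⊆ Finset.Icc 3 (Nat.card H) := by
    intro p hp
    obtain ⟨hpp, hpd, -⟩ := Nat.mem_primeFactors.mp hp
    rw [Finset.mem_Icc]
    refine ⟨?_, Nat.le_of_dvd Nat.card_pos hpd⟩
    have hp2 : p ≠ 2 := by
      rintro rfl
      exact hno2 hpd
    have := hpp.two_le
    omega
  have hsum : ∑ p ∈ (Nat.card H).primeFactors, (1 : ℚ) / (p : ℚ) ^ 2 ≤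
      1 / 2 - 1 / (Nat.card H : ℚ) :=
    le_trans (Finset.sum_le_sum_of_subset_of_nonneg hsub (fun _ _ _ => by positivity))
      (sum_inv_sq_le _ hN2)
  have hH0 : (0 : ℚ) < (Nat.card H : ℚ) := by exact_mod_cast Nat.card_pos
  have hfinal : ((Nat.card H - 1 : ℕ) : ℚ) ≤ (Nat.card H : ℚ) * (1 / 2 - 1 / (Nat.card H : ℚ)) := by
    rw [← hcard1, hcount]
    push_cast
    calc _ ≤ ∑ p ∈ (Nat.card H).primeFactors, (Nat.card H : ℚ) * (1 / (p : ℚ) ^ 2) :=
          Finset.sum_le_sum hterm
      _ = (Nat.card H : ℚ) * ∑ p ∈ (Nat.card H).primeFactors, (1 / (p : ℚ) ^ 2) := by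
          rw [Finset.mul_sum]
      _ ≤ _ := mul_le_mul_of_nonneg_left hsum hH0.le
  rw [Nat.cast_sub (by omega), mul_sub, mul_one_div, mul_one_div, div_self hH0.ne'] at hfinal
  push_cast at hfinal
  linarith

end Counting

section RelCent

variable {Γ H : Type*} [Group Γ] [Group H]

/-- The stabilizer in `Γ` of an element of `H`. -/
def St (φ : Γ →* MulAut H) (x : H) : Subgroup Γ where
  carrier := {g | φ g x = x}
  mul_mem' := by
    intro a b ha hb
    change φ (a * b) x = x
    rw [map_mul, MulAut.mul_apply, (hb : φ b x = x), (ha : φ a x = x)]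
  one_mem' := by
    change φ 1 x = x
    rw [map_one, MulAut.one_apply]
  inv_mem' := by
    intro a ha
    change φ a⁻¹ x = x
    rw [map_inv, MulAut.inv_apply, MulEquiv.symm_apply_eq]
    exact (ha : φ a x = x).symm

theorem mem_St {φ : Γ →* MulAut H} {x : H} {g : Γ} : g ∈ St φ x ↔ φ g x = x := Iff.rfl

/-- Hypotheses of the relative maximal-centralizer situation. -/
structure RelMax (φ : Γ →* MulAut H) : Prop where
  inn : ∀ h : H, ∃ g : Γ, φ g = MulAut.conj h
  max : ∀ x : H, x ≠ 1 → IsCoatom (St φ x)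
  cent : center H = ⊥

theorem St_le_St_pow (φ : Γ →* MulAut H) (x : H) (k : ℕ) : St φ x ≤ St φ (x ^ k) := by
  intro g hg
  rw [mem_St] at hg ⊢
  rw [map_pow, hg]

theorem St_inf_le_St_mul (φ : Γ →* MulAut H) (x y : H) : St φ x ⊓ St φ y ≤ St φ (x * y) := by
  intro g hg
  rw [mem_St, map_mul, mem_St.mp hg.1, mem_St.mp hg.2]

theorem mem_St_conj_iff (φ : Γ →* MulAut H) (x : H) (g m : Γ) :
    m ∈ St φ (φ g x) ↔ g⁻¹ * m * g ∈ St φ x := by
  rw [mem_St, mem_St, map_mul, map_mul, MulAut.mul_apply, MulAut.mul_apply, map_inv,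
    MulAut.inv_apply, MulEquiv.symm_apply_eq]

theorem mem_St_of_conj {φ : Γ →* MulAut H} {γ : Γ} {h : H} (hγ : φ γ = MulAut.conj h) (x : H) :
    γ ∈ St φ x ↔ h * x = x * h := by
  rw [mem_St, hγ, MulAut.conj_apply, mul_inv_eq_iff_eq_mul]

/-- The subgroup of `Γ` moving `x` inside its `L`-class. -/
def orbSub (φ : Γ →* MulAut H) (x : H) (L : Subgroup H) (hinv : ∀ m ∈ St φ x, ∀ l ∈ L, φ m l ∈ L) : Subgroup Γ where
  carrier := {g | ∃ l ∈ L, ∃ m ∈ St φ x, φ g = MulAut.conj l * φ m}
  mul_mem' := by
    rintro a b ⟨l₁, hl₁, m₁, hm₁, h₁⟩ ⟨l₂, hl₂, m₂, hm₂, h₂⟩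
    refine ⟨l₁ * φ m₁ l₂, L.mul_mem hl₁ (hinv m₁ hm₁ l₂ hl₂), m₁ * m₂,
      (St φ x).mul_mem hm₁ hm₂, ?_⟩
    rw [map_mul, h₁, h₂, map_mul φ m₁ m₂]
    ext y
    simp only [MulAut.mul_apply, MulAut.conj_apply, map_mul, map_inv]
  one_mem' := ⟨1, L.one_mem, 1, (St φ x).one_mem, by simp⟩
  inv_mem' := by
    rintro a ⟨l, hl, m, hm, h⟩
    refine ⟨φ m⁻¹ l⁻¹, hinv m⁻¹ ((St φ x).inv_mem hm) l⁻¹ (L.inv_mem hl), m⁻¹,
      (St φ x).inv_mem hm, ?_⟩
    rw [map_inv, h]
    ext y
    simp only [MulAut.mul_apply, mul_inv_rev, MulAut.inv_apply, map_inv,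
      MulAut.conj_symm_apply, map_mul]

namespace RelMax

variable {φ : Γ →* MulAut H} (R : RelMax φ)
include R

theorem St_eq_of_le {x y : H} (hx : x ≠ 1) (hy : y ≠ 1) (hle : St φ x ≤ St φ y) :
    St φ y = St φ x := by
  rcases (R.max x hx).le_iff.mp hle with h1 | h1
  · exact absurd h1 (R.max y hy).1
  · exact h1

theorem cent_le_of_St_le {x y : H} (hle : St φ x ≤ St φ y) :
    centralizer ({x} : Set H) ≤ centralizer ({y} : Set H) := by
  intro h hh
  obtain ⟨γ, hγ⟩ := R.inn h
  rw [Subgroup.mem_centralizer_singleton_iff] at hh ⊢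
  exact (mem_St_of_conj hγ y).mp (hle ((mem_St_of_conj hγ x).mpr hh))

theorem cent_eq_of_St_eq {x y : H} (he : St φ x = St φ y) :
    centralizer ({x} : Set H) = centralizer ({y} : Set H) :=
  le_antisymm (R.cent_le_of_St_le he.le) (R.cent_le_of_St_le he.ge)

theorem cent_ne_top {x : H} (hx : x ≠ 1) : centralizer ({x} : Set H) ≠ ⊤ := by
  intro htop
  apply hx
  have : x ∈ center H := by
    rw [Subgroup.mem_center_iff]
    intro g
    have hg : g ∈ centralizer ({x} : Set H) := htop ▸ Subgroup.mem_top g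
    exact Subgroup.mem_centralizer_singleton_iff.mp hg
  rw [R.cent] at this
  exact Subgroup.mem_bot.mp this

/-- Key lemma: a subgroup containing the centralizer of `x` and invariant under the
stabilizer of `x` is the centralizer, or meets every coset of it. -/
theorem key {x : H} (hx : x ≠ 1) (L : Subgroup H)
    (hinv : ∀ m ∈ St φ x, ∀ l ∈ L, φ m l ∈ L) :
    L ≤ centralizer ({x} : Set H) ∨ ∀ g : Γ, ∃ l ∈ L, φ g x = l * x * l⁻¹ := by
  have hle : St φ x ≤ orbSub φ x L hinv := by
    intro m hm
    exact ⟨1, L.one_mem, m, hm, by simp⟩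
  rcases (R.max x hx).le_iff.mp hle with h1 | h1
  · right
    intro g
    have hg : g ∈ orbSub φ x L hinv := h1 ▸ Subgroup.mem_top g
    obtain ⟨l, hl, m, hm, h⟩ := hg
    refine ⟨l, hl, ?_⟩
    rw [h, MulAut.mul_apply, mem_St.mp hm, MulAut.conj_apply]
  · left
    intro l hl
    obtain ⟨γ, hγ⟩ := R.inn l
    have hγm : γ ∈ orbSub φ x L hinv := ⟨l, hl, 1, (St φ x).one_mem, by simp [hγ]⟩
    rw [h1] at hγm
    rw [Subgroup.mem_centralizer_singleton_iff]
    exact (mem_St_of_conj hγ x).mp hγm

theorem orbit {x : H} (hx : x ≠ 1) (g : Γ) : ∃ h : H, φ g x = h * x * h⁻¹ := by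
  rcases R.key hx ⊤ (fun _ _ _ _ => Subgroup.mem_top _) with h1 | h1
  · exact absurd (top_le_iff.mp h1) (R.cent_ne_top hx)
  · obtain ⟨l, -, hl⟩ := h1 g
    exact ⟨l, hl⟩

/-- A subgroup containing the centralizer of `x` and invariant under the stabilizer of `x`
is the centralizer or the whole group. -/
theorem eq_or_eq_top {x : H} (hx : x ≠ 1) (L : Subgroup H)
    (hCL : centralizer ({x} : Set H) ≤ L)
    (hinv : ∀ m ∈ St φ x, ∀ l ∈ L, φ m l ∈ L) :
    L = centralizer ({x} : Set H) ∨ L = ⊤ := by
  rcases R.key hx L hinv with h1 | h1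
  · exact Or.inl (le_antisymm h1 hCL)
  · right
    rw [eq_top_iff]
    intro h _
    obtain ⟨γ, hγ⟩ := R.inn h
    obtain ⟨l, hl, hl'⟩ := h1 γ
    rw [hγ, MulAut.conj_apply] at hl'
    have hc : l⁻¹ * h ∈ centralizer ({x} : Set H) := by
      rw [Subgroup.mem_centralizer_singleton_iff]
      have e1 : l⁻¹ * h * x = l⁻¹ * (h * x * h⁻¹) * h := by group
      rw [e1, hl']
      group
    have : h = l * (l⁻¹ * h) := by group
    rw [this]
    exact L.mul_mem hl (hCL hc)

omit R in
theorem map_cent (x : H) (g : Γ) (c : H) :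
    φ g c ∈ centralizer ({φ g x} : Set H) ↔ c ∈ centralizer ({x} : Set H) := by
  rw [Subgroup.mem_centralizer_singleton_iff, Subgroup.mem_centralizer_singleton_iff,
    ← map_mul, ← map_mul]
  exact (φ g).injective.eq_iff

omit R in
theorem map_cent_of_mem {x : H} {m : Γ} (hm : m ∈ St φ x) (c : H) :
    φ m c ∈ centralizer ({x} : Set H) ↔ c ∈ centralizer ({x} : Set H) := by
  have := map_cent (φ := φ) x m c
  rwa [mem_St.mp hm] at this

/-- If the centralizer of `x` is a "component" and the stabilizer of `x` is not normal, the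
centralizer of `x` is a Frobenius complement. -/
theorem isFrob_of_comp {x : H} (hx : x ≠ 1) (hnn : ¬ (St φ x).Normal)
    (hcomp : ∀ y ∈ centralizer ({x} : Set H), y ≠ 1 → St φ y = St φ x) :
    Cfsg.IsFrobeniusComplement (centralizer ({x} : Set H)) := by
  rw [Cfsg.Agent.Helper71.isFrobeniusComplement_iff]
  have hxQ : x ∈ centralizer ({x} : Set H) := Subgroup.mem_centralizer_singleton_iff.mpr rfl
  have hNM : normalizer ((St φ x : Subgroup Γ) : Set Γ) = St φ x := by
    rcases (R.max x hx).le_iff.mp (Subgroup.le_normalizer) with h2 | h2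
    · exact absurd (Subgroup.normalizer_eq_top_iff.mp h2) hnn
    · exact h2
  refine ⟨?_, R.cent_ne_top hx, ?_⟩
  · intro hbot
    rw [hbot, Subgroup.mem_bot] at hxQ
    exact hx hxQ
  · intro g hg y hy hyg
    by_contra hy1
    have hyg1 : g⁻¹ * y * g ≠ 1 := by
      intro h'
      apply hy1
      have e : y = g * (g⁻¹ * y * g) * g⁻¹ := by group
      rw [e, h']; group
    have h1 := hcomp y hy hy1
    have h2 := hcomp _ hyg hyg1
    obtain ⟨γ, hγ⟩ := R.inn g⁻¹
    have e : φ γ y = g⁻¹ * y * g := by rw [hγ, MulAut.conj_apply, inv_inv]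
    have hγN : γ ∈ normalizer ((St φ x : Subgroup Γ) : Set Γ) := by
      rw [Subgroup.mem_normalizer_iff]
      intro m
      have h3 : γ * m * γ⁻¹ ∈ St φ x ↔ m ∈ St φ y := by
        rw [← h2, ← e, mem_St_conj_iff]
        have e' : γ⁻¹ * (γ * m * γ⁻¹) * γ = m := by group
        rw [e']
      rw [h3, h1]
    rw [hNM] at hγN
    have h4 := (mem_St_of_conj hγ x).mp hγN
    apply hg
    rw [Subgroup.mem_centralizer_singleton_iff]
    have e1 : g * x = g * (x * g⁻¹) * g := by group
    rw [e1, ← h4]
    group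

/-- Structure: if the centralizer of `x` is a "component" and a Frobenius complement, then
it has prime order and the Frobenius kernel is an elementary abelian normal subgroup. -/
theorem frob_structure [Finite H] {x : H} (hx : x ≠ 1)
    (hcomp : ∀ y ∈ centralizer ({x} : Set H), y ≠ 1 → St φ y = St φ x)
    (hF : Cfsg.IsFrobeniusComplement (centralizer ({x} : Set H))) :
    ∃ (K : Subgroup H) (p : ℕ), p.Prime ∧ (Nat.card (centralizer ({x} : Set H))).Prime ∧
      K.Normal ∧ (K : Set H) = Cfsg.frobeniusKernel (centralizer ({x} : Set H)) ∧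
      Cfsg.IsElementaryAbelian p K := by
  obtain ⟨K, hKset, hF'⟩ := Cfsg.Agent.Helper29.exists_frobPair _ hF
  have hxQ : x ∈ centralizer ({x} : Set H) := Subgroup.mem_centralizer_singleton_iff.mpr rfl
  have hKn : K.Normal := hF'.normal
  -- `K` is invariant under `Γ`
  have hKinv : ∀ g : Γ, ∀ k ∈ K, φ g k ∈ K := by
    intro g k hk
    rw [hF'.mem_iff] at hk ⊢
    rcases hk with rfl | hk
    · left; exact map_one _
    · right
      intro u hu
      obtain ⟨h, hh⟩ := R.orbit hx g⁻¹
      have h1 : φ g⁻¹ (u⁻¹ * φ g k * u) ∈ centralizer ({φ g⁻¹ x} : Set H) :=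
        (map_cent x g⁻¹ _).mpr hu
      have h2 : φ g⁻¹ (u⁻¹ * φ g k * u) = (φ g⁻¹ u)⁻¹ * k * (φ g⁻¹ u) := by
        have e : φ g⁻¹ (φ g k) = k := by
          rw [← MulAut.mul_apply, ← map_mul, inv_mul_cancel, map_one, MulAut.one_apply]
        rw [map_mul, map_mul, map_inv (φ g⁻¹) u, e]
      rw [h2, hh] at h1
      apply hk (φ g⁻¹ u * h)
      rw [Subgroup.mem_centralizer_singleton_iff] at h1 ⊢
      generalize φ g⁻¹ u = w at h1 ⊢
      have e1 : (w * h)⁻¹ * k * (w * h) * x = h⁻¹ * ((w⁻¹ * k * w) * (h * x * h⁻¹)) * h := by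
        group
      have e2 : x * ((w * h)⁻¹ * k * (w * h)) = h⁻¹ * ((h * x * h⁻¹) * (w⁻¹ * k * w)) * h := by
        group
      rw [e1, e2, h1]
  have hxK : x ∉ K := fun h => hx (hF'.disjoint h hxQ)
  have hKtop : K ≠ ⊤ := fun h => hxK (h ▸ Subgroup.mem_top x)
  have hCK : ∀ k ∈ K, k ≠ 1 → centralizer ({k} : Set H) = K := by
    intro k hk hk1
    have hle : centralizer ({k} : Set H) ≤ K := by
      intro g hg
      by_contra hgK
      exact hk1 (hF'.eq_one_of_commute hgK hk (Subgroup.mem_centralizer_singleton_iff.mp hg))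
    rcases R.eq_or_eq_top hk1 K hle (fun m _ l hl => hKinv m l hl) with h1 | h1
    · exact h1.symm
    · exact absurd h1 hKtop
  have hKab : ∀ a ∈ K, ∀ b ∈ K, a * b = b * a := by
    intro a ha b hb
    by_cases hb1 : b = 1
    · rw [hb1, mul_one, one_mul]
    · have : a ∈ centralizer ({b} : Set H) := by rw [hCK b hb hb1]; exact ha
      exact Subgroup.mem_centralizer_singleton_iff.mp this
  have hKbot : K ≠ ⊥ := hF'.kernel_ne_bot
  -- a prime dividing the order of `K`
  have hcardK : Nat.card K ≠ 1 := fun h => hKbot (Subgroup.card_eq_one.mp h)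
  have hp : (Nat.card K).minFac.Prime := Nat.minFac_prime hcardK
  have hpd : (Nat.card K).minFac ∣ Nat.card K := Nat.minFac_dvd _
  generalize (Nat.card K).minFac = p at hp hpd
  have := Fact.mk hp
  obtain ⟨k₀, hk₀⟩ := exists_prime_orderOf_dvd_card' (G := ↥K) p hpd
  have hk₀' : orderOf (k₀ : H) = p := by rw [Subgroup.orderOf_coe]; exact hk₀
  have hk₀1 : (k₀ : H) ≠ 1 := by
    intro h
    rw [h, orderOf_one] at hk₀'
    exact hp.one_lt.ne hk₀'
  -- the subgroup of elements of order dividing `p`
  let K₁ : Subgroup H :=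
    { carrier := {k | k ∈ K ∧ k ^ p = 1}
      mul_mem' := by
        rintro a b ⟨ha, ha'⟩ ⟨hb, hb'⟩
        refine ⟨K.mul_mem ha hb, ?_⟩
        rw [(show Commute a b from hKab a ha b hb).mul_pow, ha', hb', one_mul]
      one_mem' := ⟨K.one_mem, one_pow _⟩
      inv_mem' := by
        rintro a ⟨ha, ha'⟩
        exact ⟨K.inv_mem ha, by rw [inv_pow, ha', inv_one]⟩ }
  have hK₁mem : ∀ k : H, k ∈ K₁ ↔ k ∈ K ∧ k ^ p = 1 := fun k => Iff.rfl
  have hK₁n : K₁.Normal := by
    constructor
    intro k hk g
    rw [hK₁mem] at hk ⊢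
    exact ⟨hKn.conj_mem k hk.1 g, by rw [conj_pow, hk.2]; group⟩
  have hexp : ∀ k ∈ K, k ^ p = 1 := by
    have hinv : ∀ m ∈ St φ x, ∀ l ∈ centralizer ({x} : Set H) ⊔ K₁,
        φ m l ∈ centralizer ({x} : Set H) ⊔ K₁ := by
      intro m hm l hl
      rw [Subgroup.mem_sup_of_normal_right] at hl ⊢
      obtain ⟨u, hu, k, hk, rfl⟩ := hl
      refine ⟨φ m u, (map_cent_of_mem hm u).mpr hu, φ m k, ?_, (map_mul _ _ _).symm⟩
      rw [hK₁mem] at hk ⊢
      exact ⟨hKinv m k hk.1, by rw [← map_pow, hk.2, map_one]⟩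
    rcases R.eq_or_eq_top hx (centralizer ({x} : Set H) ⊔ K₁) le_sup_left hinv with h1 | h1
    · exfalso
      have h2 : (k₀ : H) ∈ centralizer ({x} : Set H) := by
        rw [← h1]
        apply (le_sup_right : K₁ ≤ centralizer ({x} : Set H) ⊔ K₁)
        rw [hK₁mem]
        exact ⟨k₀.2, by rw [← hk₀', pow_orderOf_eq_one]⟩
      exact hk₀1 (hF'.disjoint k₀.2 h2)
    · intro k hk
      have hk' : k ∈ centralizer ({x} : Set H) ⊔ K₁ := h1 ▸ Subgroup.mem_top k
      rw [Subgroup.mem_sup_of_normal_right] at hk'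
      obtain ⟨u, hu, k₁, hk₁, rfl⟩ := hk'
      rw [hK₁mem] at hk₁
      have hu1 : u = 1 := by
        apply hF'.disjoint _ hu
        have : u = (u * k₁) * k₁⁻¹ := by group
        rw [this]
        exact K.mul_mem hk (K.inv_mem hk₁.1)
      rw [hu1, one_mul]
      exact hk₁.2
  -- the complement has prime order
  have hQbot : centralizer ({x} : Set H) ≠ ⊥ := hF'.ne_bot
  have hcardQ : Nat.card (centralizer ({x} : Set H)) ≠ 1 :=
    fun h => hQbot (Subgroup.card_eq_one.mp h)
  have hq : (Nat.card (centralizer ({x} : Set H))).minFac.Prime := Nat.minFac_prime hcardQ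
  have hqd : (Nat.card (centralizer ({x} : Set H))).minFac ∣
      Nat.card (centralizer ({x} : Set H)) := Nat.minFac_dvd _
  generalize (Nat.card (centralizer ({x} : Set H))).minFac = q at hq hqd
  have := Fact.mk hq
  obtain ⟨u₀, hu₀⟩ := exists_prime_orderOf_dvd_card' (G := ↥(centralizer ({x} : Set H))) q hqd
  have hu₀' : orderOf (u₀ : H) = q := by rw [Subgroup.orderOf_coe]; exact hu₀
  have hu₀1 : (u₀ : H) ≠ 1 := by
    intro h
    rw [h, orderOf_one] at hu₀'
    exact hq.one_lt.ne hu₀'
  have hQ₁le : zpowers (u₀ : H) ≤ centralizer ({x} : Set H) := by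
    rw [Subgroup.zpowers_le]; exact u₀.2
  have hQeq : centralizer ({x} : Set H) ≤ zpowers (u₀ : H) := by
    have hinv : ∀ m ∈ St φ (k₀ : H), ∀ l ∈ K ⊔ zpowers (u₀ : H),
        φ m l ∈ K ⊔ zpowers (u₀ : H) := by
      intro m hm l hl
      rw [Subgroup.mem_sup_of_normal_left] at hl
      obtain ⟨k, hk, u, hu, rfl⟩ := hl
      rw [map_mul]
      refine Subgroup.mul_mem _ ((le_sup_left : K ≤ K ⊔ zpowers (u₀ : H)) (hKinv m k hk)) ?_
      by_cases hu1 : u = 1
      · rw [hu1, map_one]; exact Subgroup.one_mem _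
      obtain ⟨h, hh⟩ := R.orbit hx m
      obtain ⟨n, hn, v, hv, rfl⟩ := hF'.exists_mul h
      have hvx : v * x = x * v := Subgroup.mem_centralizer_singleton_iff.mp hv
      have hh' : φ m x = n * x * n⁻¹ := by
        rw [hh]
        have e1 : n * v * x * (n * v)⁻¹ = n * (v * x) * v⁻¹ * n⁻¹ := by group
        rw [e1, hvx]; group
      obtain ⟨γ, hγ⟩ := R.inn n
      have hm' : γ⁻¹ * m ∈ St φ x := by
        rw [mem_St, map_mul, MulAut.mul_apply, hh', map_inv, hγ, MulAut.inv_apply,
          MulAut.conj_symm_apply]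
        group
      have hSt : St φ u = St φ x := hcomp u (hQ₁le hu) hu1
      rw [← hSt, mem_St, map_mul, MulAut.mul_apply, map_inv, MulAut.inv_apply,
        MulEquiv.symm_apply_eq, hγ, MulAut.conj_apply] at hm'
      rw [hm']
      have e2 : n * u * n⁻¹ = (n * (u * n⁻¹ * u⁻¹)) * u := by group
      rw [e2]
      exact Subgroup.mul_mem _ ((le_sup_left : K ≤ K ⊔ zpowers (u₀ : H))
        (K.mul_mem hn (hKn.conj_mem _ (K.inv_mem hn) u)))
        ((le_sup_right : zpowers (u₀ : H) ≤ K ⊔ zpowers (u₀ : H)) hu)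
    have hCle : centralizer ({(k₀ : H)} : Set H) ≤ K ⊔ zpowers (u₀ : H) := by
      rw [hCK _ k₀.2 hk₀1]; exact le_sup_left
    rcases R.eq_or_eq_top hk₀1 (K ⊔ zpowers (u₀ : H)) hCle hinv with h1 | h1
    · exfalso
      rw [hCK _ k₀.2 hk₀1] at h1
      have h2 : (u₀ : H) ∈ K := by
        rw [← h1]
        exact (le_sup_right : zpowers (u₀ : H) ≤ K ⊔ zpowers (u₀ : H)) (Subgroup.mem_zpowers _)
      exact hu₀1 (hF'.disjoint h2 u₀.2)
    · intro v hv
      have hv' : v ∈ K ⊔ zpowers (u₀ : H) := h1 ▸ Subgroup.mem_top v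
      rw [Subgroup.mem_sup_of_normal_left] at hv'
      obtain ⟨k, hk, u, hu, rfl⟩ := hv'
      have hk1 : k = 1 := by
        apply hF'.disjoint hk
        have : k = (k * u) * u⁻¹ := by group
        rw [this]
        exact Subgroup.mul_mem _ hv (Subgroup.inv_mem _ (hQ₁le hu))
      rw [hk1, one_mul]
      exact hu
  have hQz : centralizer ({x} : Set H) = zpowers (u₀ : H) := le_antisymm hQeq hQ₁le
  refine ⟨K, p, hp, ?_, hKn, hKset, ⟨⟨⟨fun a b => Subtype.ext (hKab a a.2 b b.2)⟩⟩, hexp⟩⟩
  rw [hQz, Nat.card_zpowers, hu₀']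
  exact hq

omit R in
theorem St_conj_of_normal {x : H} (hn : (St φ x).Normal) (g : Γ) : St φ (φ g x) = St φ x := by
  ext m
  rw [mem_St_conj_iff]
  constructor
  · intro h
    have h1 := hn.conj_mem _ h g
    have e : g * (g⁻¹ * m * g) * g⁻¹ = m := by group
    rwa [e] at h1
  · intro h
    have h1 := hn.conj_mem _ h g⁻¹
    rwa [inv_inv] at h1

theorem cent_inv_of_St_normal {x : H} (hn : (St φ x).Normal) (g : Γ) (c : H) :
    φ g c ∈ centralizer ({x} : Set H) ↔ c ∈ centralizer ({x} : Set H) := by
  have e := R.cent_eq_of_St_eq (St_conj_of_normal hn g)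
  conv_lhs => rw [← e]
  exact map_cent x g c

theorem cent_normal_of_St_normal {x : H} (hn : (St φ x).Normal) :
    (centralizer ({x} : Set H)).Normal := by
  constructor
  intro c hc h
  obtain ⟨γ, hγ⟩ := R.inn h
  have := (R.cent_inv_of_St_normal hn γ c).mpr hc
  rwa [hγ, MulAut.conj_apply] at this

/-- If some stabilizer is normal, there is an element whose centralizer is a "component"
with non-normal stabilizer. -/
theorem exists_comp_of_normal [Finite H] {x : H} (hx : x ≠ 1) (hn : (St φ x).Normal) :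
    ∃ t : H, t ≠ 1 ∧ ¬ (St φ t).Normal ∧
      ∀ y ∈ centralizer ({t} : Set H), y ≠ 1 → St φ y = St φ t := by
  have hCinv := R.cent_inv_of_St_normal hn
  have hCn : (centralizer ({x} : Set H)).Normal := R.cent_normal_of_St_normal hn
  -- the centralizer of `x` is a maximal subgroup
  have hmaxC : ∀ L : Subgroup H, centralizer ({x} : Set H) ≤ L →
      L = centralizer ({x} : Set H) ∨ L = ⊤ := by
    intro L hL
    apply R.eq_or_eq_top hx L hL
    intro m hm l hl
    obtain ⟨γ, hγ⟩ := R.inn l
    have h1 : γ⁻¹ * m * γ ∈ St φ x := by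
      have := hn.conj_mem m hm γ⁻¹
      rwa [inv_inv] at this
    have h2 : φ m l * x * (φ m l)⁻¹ = l * x * l⁻¹ := by
      rw [← mem_St_conj_iff, mem_St, hγ, MulAut.conj_apply, map_mul, map_mul, map_inv,
        mem_St.mp hm] at h1
      exact h1
    have h3 : l⁻¹ * φ m l ∈ centralizer ({x} : Set H) := by
      rw [Subgroup.mem_centralizer_singleton_iff]
      have e1 : l⁻¹ * φ m l * x = l⁻¹ * (φ m l * x * (φ m l)⁻¹) * φ m l := by group
      rw [e1, h2]; group
    have e : φ m l = l * (l⁻¹ * φ m l) := by group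
    rw [e]
    exact L.mul_mem hl (hL h3)
  -- the component of `x`
  let B : Subgroup H :=
    { carrier := {y | St φ x ≤ St φ y}
      mul_mem' := by
        intro a b ha hb
        exact le_trans (le_inf ha hb) (St_inf_le_St_mul φ a b)
      one_mem' := by
        intro m _
        rw [mem_St, map_one]
      inv_mem' := by
        intro a ha m hm
        rw [mem_St, map_inv, mem_St.mp (ha hm)] }
  have hBmem : ∀ y : H, y ∈ B ↔ St φ x ≤ St φ y := fun _ => Iff.rfl
  have hxB : x ∈ B := (hBmem x).mpr le_rfl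
  have hBinv : ∀ g : Γ, ∀ b ∈ B, φ g b ∈ B := by
    intro g b hb
    rw [hBmem] at hb ⊢
    intro m hm
    rw [mem_St_conj_iff]
    apply hb
    have := hn.conj_mem m hm g⁻¹
    rwa [inv_inv] at this
  have hBn : B.Normal := by
    constructor
    intro b hb h
    obtain ⟨γ, hγ⟩ := R.inn h
    have := hBinv γ b hb
    rwa [hγ, MulAut.conj_apply] at this
  have hBC : ∀ b ∈ B, b ≠ 1 → centralizer ({b} : Set H) = centralizer ({x} : Set H) :=
    fun b hb hb1 => R.cent_eq_of_St_eq (R.St_eq_of_le hx hb1 hb)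
  have hBle : B ≤ centralizer ({x} : Set H) := by
    intro b hb
    by_cases hb1 : b = 1
    · rw [hb1]; exact Subgroup.one_mem _
    · rw [← hBC b hb hb1]; exact Subgroup.mem_centralizer_singleton_iff.mpr rfl
  have hdisj : ∀ t : H, t ∉ centralizer ({x} : Set H) → ∀ b ∈ B,
      b ∈ centralizer ({t} : Set H) → b = 1 := by
    intro t ht b hb hbt
    by_contra hb1
    apply ht
    rw [← hBC b hb hb1, Subgroup.mem_centralizer_singleton_iff]
    exact (Subgroup.mem_centralizer_singleton_iff.mp hbt).symm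
  have hsup : ∀ t : H, t ∉ centralizer ({x} : Set H) → centralizer ({t} : Set H) ⊔ B = ⊤ := by
    intro t ht
    have ht1 : t ≠ 1 := by rintro rfl; exact ht (Subgroup.one_mem _)
    have hinv : ∀ m ∈ St φ t, ∀ l ∈ centralizer ({t} : Set H) ⊔ B,
        φ m l ∈ centralizer ({t} : Set H) ⊔ B := by
      intro m hm l hl
      rw [Subgroup.mem_sup_of_normal_right] at hl ⊢
      obtain ⟨u, hu, b, hb, rfl⟩ := hl
      exact ⟨φ m u, (map_cent_of_mem hm u).mpr hu, φ m b, hBinv m b hb, (map_mul _ _ _).symm⟩
    rcases R.eq_or_eq_top ht1 _ le_sup_left hinv with h1 | h1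
    · exfalso
      have : x ∈ centralizer ({t} : Set H) := by
        rw [← h1]; exact (le_sup_right : B ≤ centralizer ({t} : Set H) ⊔ B) hxB
      exact hx (hdisj t ht x hxB this)
    · exact h1
  -- centralizers of elements outside `C(x)` meet `C(x)` trivially
  have hF1 : ∀ t : H, t ∉ centralizer ({x} : Set H) → ∀ f ∈ centralizer ({t} : Set H),
      f ∈ centralizer ({x} : Set H) → f = 1 := by
    intro t ht f hft hfx
    by_contra hf1
    have ht1 : t ≠ 1 := by rintro rfl; exact ht (Subgroup.one_mem _)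
    have hFn : ∀ h : H, ∀ f' ∈ centralizer ({t} : Set H) ⊓ centralizer ({x} : Set H),
        h * f' * h⁻¹ ∈ centralizer ({t} : Set H) ⊓ centralizer ({x} : Set H) := by
      intro h f' hf'
      refine ⟨?_, hCn.conj_mem f' hf'.2 h⟩
      have hh : h ∈ centralizer ({t} : Set H) ⊔ B := hsup t ht ▸ Subgroup.mem_top h
      rw [Subgroup.mem_sup_of_normal_right] at hh
      obtain ⟨u, hu, b, hb, rfl⟩ := hh
      have hbf : b * f' = f' * b := by
        by_cases hb1 : b = 1
        · rw [hb1, one_mul, mul_one]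
        · have : f' ∈ centralizer ({b} : Set H) := by rw [hBC b hb hb1]; exact hf'.2
          exact (Subgroup.mem_centralizer_singleton_iff.mp this).symm
      have e : u * b * f' * (u * b)⁻¹ = u * (b * f') * b⁻¹ * u⁻¹ := by group
      rw [e, hbf]
      have e2 : u * (f' * b) * b⁻¹ * u⁻¹ = u * f' * u⁻¹ := by group
      rw [e2]
      exact Subgroup.mul_mem _ (Subgroup.mul_mem _ hu hf'.1) (Subgroup.inv_mem _ hu)
    have hFinv : ∀ g : Γ, ∀ f' ∈ centralizer ({t} : Set H) ⊓ centralizer ({x} : Set H),
        φ g f' ∈ centralizer ({t} : Set H) ⊓ centralizer ({x} : Set H) := by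
      intro g f' hf'
      obtain ⟨h, hh⟩ := R.orbit ht1 g
      have h1 : φ g f' ∈ centralizer ({φ g t} : Set H) := (map_cent t g f').mpr hf'.1
      have h2 : φ g f' ∈ centralizer ({x} : Set H) := (hCinv g f').mpr hf'.2
      have h3 : h⁻¹ * φ g f' * h ∈ centralizer ({t} : Set H) ⊓ centralizer ({x} : Set H) := by
        rw [Subgroup.mem_inf]
        refine ⟨?_, ?_⟩
        · rw [hh, Subgroup.mem_centralizer_singleton_iff] at h1
          rw [Subgroup.mem_centralizer_singleton_iff]
          have e1 : h⁻¹ * φ g f' * h * t = h⁻¹ * (φ g f' * (h * t * h⁻¹)) * h := by group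
          have e2 : t * (h⁻¹ * φ g f' * h) = h⁻¹ * ((h * t * h⁻¹) * φ g f') * h := by group
          rw [e1, e2, h1]
        · have := hCn.conj_mem _ h2 h⁻¹
          rwa [inv_inv] at this
      have h4 := hFn h _ h3
      have e : h * (h⁻¹ * φ g f' * h) * h⁻¹ = φ g f' := by group
      rwa [e] at h4
    have hfF : f ∈ centralizer ({t} : Set H) ⊓ centralizer ({x} : Set H) := ⟨hft, hfx⟩
    have hfB : f ∉ B := fun hfB => hf1 (hdisj t ht f hfB hft)
    have hfx1 : f * x ≠ 1 := by
      intro h
      apply hfB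
      have : f = x⁻¹ := eq_inv_of_mul_eq_one_left h
      rw [this]
      exact B.inv_mem hxB
    have hkey : ∀ m ∈ St φ (f * x), φ m f = f ∧ φ m x = x := by
      intro m hm
      rw [mem_St, map_mul] at hm
      have hz : f⁻¹ * φ m f = x * (φ m x)⁻¹ := by
        rw [inv_mul_eq_iff_eq_mul, ← mul_assoc, eq_mul_inv_iff_mul_eq]
        exact hm
      have hz1 : f⁻¹ * φ m f = 1 := by
        apply hdisj t ht
        · rw [hz]
          exact B.mul_mem hxB (B.inv_mem (hBinv m x hxB))
        · exact (Subgroup.mul_mem _ (Subgroup.inv_mem _ hfF) (hFinv m f hfF)).1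
      have h1 : φ m f = f := by
        rw [inv_mul_eq_one] at hz1
        exact hz1.symm
      refine ⟨h1, ?_⟩
      rw [hz1] at hz
      have := mul_inv_eq_one.mp hz.symm
      exact this.symm
    have e1 : St φ x = St φ (f * x) :=
      R.St_eq_of_le hfx1 hx (fun m hm => mem_St.mpr (hkey m hm).2)
    have e2 : St φ f = St φ (f * x) :=
      R.St_eq_of_le hfx1 hf1 (fun m hm => mem_St.mpr (hkey m hm).1)
    apply hfB
    rw [hBmem, e1, ← e2]
  -- an element outside `C(x)`
  obtain ⟨t₀, ht₀⟩ : ∃ t₀ : H, t₀ ∉ centralizer ({x} : Set H) := by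
    by_contra hcon
    apply R.cent_ne_top hx
    rw [eq_top_iff]
    intro g _
    by_contra hg
    exact hcon ⟨g, hg⟩
  have ht₀1 : t₀ ≠ 1 := by rintro rfl; exact ht₀ (Subgroup.one_mem _)
  have hk1 : orderOf t₀ ≠ 1 := by rwa [Ne, orderOf_eq_one_iff]
  have hk0 : orderOf t₀ ≠ 0 := (orderOf_pos _).ne'
  have hq : (orderOf t₀).minFac.Prime := Nat.minFac_prime hk1
  have hqd : (orderOf t₀).minFac ∣ orderOf t₀ := Nat.minFac_dvd _
  have ho := orderOf_pow_orderOf_div hk0 hqd
  generalize (orderOf t₀).minFac = q at hq hqd ho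
  generalize orderOf t₀ / q = j at ho
  have ht1 : t₀ ^ j ≠ 1 := by
    intro h
    rw [h, orderOf_one] at ho
    exact hq.one_lt.ne ho
  have htt₀ : t₀ ^ j ∈ centralizer ({t₀} : Set H) := by
    rw [Subgroup.mem_centralizer_singleton_iff]
    exact ((Commute.refl t₀).pow_left j).eq
  have ht : t₀ ^ j ∉ centralizer ({x} : Set H) := fun h => ht1 (hF1 t₀ ht₀ _ htt₀ h)
  generalize t₀ ^ j = t at ho ht1 ht
  have hzle : zpowers t ≤ centralizer ({t} : Set H) := by
    rw [Subgroup.zpowers_le, Subgroup.mem_centralizer_singleton_iff]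
  have hCt : centralizer ({t} : Set H) = zpowers t := by
    refine le_antisymm ?_ hzle
    intro c hc
    have htop : centralizer ({x} : Set H) ⊔ zpowers t = ⊤ := by
      rcases hmaxC _ le_sup_left with h1 | h1
      · exfalso
        apply ht
        rw [← h1]
        exact (le_sup_right : zpowers t ≤ centralizer ({x} : Set H) ⊔ zpowers t)
          (Subgroup.mem_zpowers t)
      · exact h1
    have hc' : c ∈ centralizer ({x} : Set H) ⊔ zpowers t := htop ▸ Subgroup.mem_top c
    rw [Subgroup.mem_sup_of_normal_left] at hc'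
    obtain ⟨a, ha, z, hz, rfl⟩ := hc'
    have ha1 : a = 1 := by
      apply hF1 t ht a _ ha
      have : a = (a * z) * z⁻¹ := by group
      rw [this]
      exact Subgroup.mul_mem _ hc (Subgroup.inv_mem _ (hzle hz))
    rw [ha1, one_mul]
    exact hz
  refine ⟨t, ht1, ?_, ?_⟩
  · intro hnt
    have hCtn := R.cent_normal_of_St_normal hnt
    have h1 : x * t * x⁻¹ * t⁻¹ = 1 := by
      apply hdisj t ht
      · have e : x * t * x⁻¹ * t⁻¹ = x * (t * x⁻¹ * t⁻¹) := by group
        rw [e]
        exact B.mul_mem hxB (hBn.conj_mem _ (B.inv_mem hxB) t)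
      · exact Subgroup.mul_mem _ (hCtn.conj_mem t
          (Subgroup.mem_centralizer_singleton_iff.mpr rfl) x)
          (Subgroup.inv_mem _ (Subgroup.mem_centralizer_singleton_iff.mpr rfl))
    apply ht
    rw [Subgroup.mem_centralizer_singleton_iff]
    have e : t * x = (x * t * x⁻¹ * t⁻¹)⁻¹ * x * t := by group
    rw [e, h1, inv_one, one_mul]
  · intro y hy hy1
    rw [hCt] at hy
    obtain ⟨k, rfl⟩ := Subgroup.mem_zpowers_iff.mp hy
    apply R.St_eq_of_le ht1 hy1
    intro m hm
    rw [mem_St, map_zpow, mem_St.mp hm]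

omit R in
theorem St_inv_eq (x : H) : St φ x⁻¹ = St φ x := by
  ext m
  rw [mem_St, mem_St, map_inv, inv_inj]

/-- The case where no stabilizer is normal and no centralizer is a "component" is
impossible. -/
theorem false_of_noncomp [Finite H] [Nontrivial H]
    (hnc : ∀ x : H, x ≠ 1 → ∃ y ∈ centralizer ({x} : Set H), y ≠ 1 ∧ St φ y ≠ St φ x) :
    False := by
  have F1 : ∀ x y : H, x ≠ 1 → y ≠ 1 → x * y = y * x → St φ x ≠ St φ y →
      x ^ orderOf y = 1 := by
    intro x y hx hy hc hne
    by_contra hxk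
    have hxy1 : x * y ≠ 1 := by
      intro h
      apply hne
      have : y = x⁻¹ := eq_inv_of_mul_eq_one_right h
      rw [this, St_inv_eq]
    have e1 : (x * y) ^ orderOf y = x ^ orderOf y := by
      rw [(show Commute x y from hc).mul_pow, pow_orderOf_eq_one, mul_one]
    have h1 : St φ (x * y) ≤ St φ (x ^ orderOf y) := e1 ▸ St_le_St_pow φ (x * y) (orderOf y)
    have h2 : St φ (x ^ orderOf y) = St φ x := R.St_eq_of_le hx hxk (St_le_St_pow φ x _)
    rw [h2] at h1
    have h3 : St φ x = St φ (x * y) := R.St_eq_of_le hxy1 hx h1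
    apply hne
    symm
    apply R.St_eq_of_le hx hy
    intro m hm
    have hm' : m ∈ St φ (x * y) := h3 ▸ hm
    rw [mem_St] at hm hm' ⊢
    rw [map_mul, hm] at hm'
    exact mul_left_cancel hm'
  have F2 : ∀ x y : H, x ≠ 1 → y ≠ 1 → x * y = y * x → St φ x ≠ St φ y →
      orderOf x = orderOf y := by
    intro x y hx hy hc hne
    exact Nat.dvd_antisymm (orderOf_dvd_of_pow_eq_one (F1 x y hx hy hc hne))
      (orderOf_dvd_of_pow_eq_one (F1 y x hy hx hc.symm (Ne.symm hne)))
  have F3 : ∀ x : H, x ≠ 1 → (orderOf x).Prime := by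
    intro x hx
    obtain ⟨y, hy, hy1, hne⟩ := hnc x hx
    have hc : x * y = y * x := (Subgroup.mem_centralizer_singleton_iff.mp hy).symm
    have hk1 : orderOf x ≠ 1 := by rwa [Ne, orderOf_eq_one_iff]
    have hk0 : orderOf x ≠ 0 := (orderOf_pos _).ne'
    have hq := Nat.minFac_prime hk1
    have hqd := Nat.minFac_dvd (orderOf x)
    have ho := orderOf_pow_orderOf_div hk0 hqd
    have hx'1 : x ^ (orderOf x / (orderOf x).minFac) ≠ 1 := by
      intro h
      rw [h, orderOf_one] at ho
      exact hq.one_lt.ne ho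
    have hSt : St φ (x ^ (orderOf x / (orderOf x).minFac)) = St φ x :=
      R.St_eq_of_le hx hx'1 (St_le_St_pow φ x _)
    have hc' : x ^ (orderOf x / (orderOf x).minFac) * y =
        y * x ^ (orderOf x / (orderOf x).minFac) :=
      ((show Commute x y from hc).pow_left _).eq
    have e1 := F2 _ y hx'1 hy1 hc' (by rw [hSt]; exact Ne.symm hne)
    have e2 := F2 x y hx hy1 hc (Ne.symm hne)
    rw [ho] at e1
    rw [e2, ← e1]
    exact hq
  have F4 : ∀ x w : H, x ≠ 1 → w ≠ 1 → x * w = w * x → orderOf x = orderOf w := by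
    intro x w hx hw hc
    by_cases he : St φ x = St φ w
    · obtain ⟨y, hy, hy1, hne⟩ := hnc x hx
      have hcy : x * y = y * x := (Subgroup.mem_centralizer_singleton_iff.mp hy).symm
      have hyw : y ∈ centralizer ({w} : Set H) := by
        rw [← R.cent_eq_of_St_eq he]; exact hy
      have hcw : w * y = y * w := (Subgroup.mem_centralizer_singleton_iff.mp hyw).symm
      rw [F2 x y hx hy1 hcy (Ne.symm hne), F2 w y hw hy1 hcw (by rw [← he]; exact Ne.symm hne)]
    · exact F2 x w hx hw hc he
  have F5 : ∀ x : H, x ≠ 1 → ∀ w ∈ centralizer ({x} : Set H), w ^ orderOf x = 1 := by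
    intro x hx w hw
    by_cases hw1 : w = 1
    · rw [hw1, one_pow]
    · rw [F4 x w hx hw1 (Subgroup.mem_centralizer_singleton_iff.mp hw).symm]
      exact pow_orderOf_eq_one w
  -- no centralizer is normal
  have F6 : ∀ x : H, x ≠ 1 → ¬ (centralizer ({x} : Set H)).Normal := by
    intro x hx hDn
    have hp := F3 x hx
    obtain ⟨t, ht1, hto⟩ : ∃ t : H, t ≠ 1 ∧ orderOf t ≠ orderOf x := by
      by_contra hcon
      have hcon' : ∀ t : H, t ≠ 1 → orderOf t = orderOf x := by
        intro t ht
        by_contra hne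
        exact hcon ⟨t, ht, hne⟩
      have := Fact.mk hp
      have hPG : IsPGroup (orderOf x) H := by
        intro g
        refine ⟨1, ?_⟩
        by_cases hg : g = 1
        · rw [hg, one_pow]
        · rw [pow_one, ← hcon' g hg]
          exact pow_orderOf_eq_one g
      have hnt := hPG.center_nontrivial
      rw [R.cent] at hnt
      exact not_nontrivial _ hnt
    have hr := F3 t ht1
    obtain ⟨t', ht', ht'1, hne⟩ := hnc t ht1
    have hc : t * t' = t' * t := (Subgroup.mem_centralizer_singleton_iff.mp ht').symm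
    have hto' : orderOf t' = orderOf t := (F4 t t' ht1 ht'1 hc).symm
    let V : Subgroup H :=
      centralizer ({x} : Set H) ⊓ centralizer ((centralizer ({x} : Set H) : Subgroup H) : Set H)
    have hVmem : ∀ v : H, v ∈ V ↔ v ∈ centralizer ({x} : Set H) ∧
        ∀ h ∈ centralizer ({x} : Set H), h * v = v * h := by
      intro v
      exact Iff.rfl
    have hxV : x ∈ V := by
      rw [hVmem]
      refine ⟨Subgroup.mem_centralizer_singleton_iff.mpr rfl, fun h hh => ?_⟩
      exact Subgroup.mem_centralizer_singleton_iff.mp hh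
    have hVcomm : IsMulCommutative ↥V :=
      ⟨⟨fun a b => Subtype.ext (((hVmem b).mp b.2).2 a ((hVmem a).mp a.2).1)⟩⟩
    have hVbot : V ≠ ⊥ := by
      intro hbot
      rw [hbot, Subgroup.mem_bot] at hxV
      exact hx hxV
    have hVnorm : ∀ g : H, g ∈ normalizer ((V : Subgroup H) : Set H) := by
      intro g
      have hconj : ∀ (g : H) (v : H), v ∈ V → g * v * g⁻¹ ∈ V := by
        intro g v hv
        rw [hVmem] at hv ⊢
        refine ⟨hDn.conj_mem v hv.1 g, fun h hh => ?_⟩
        have h1 := hv.2 (g⁻¹ * h * g) (by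
          have := hDn.conj_mem h hh g⁻¹
          rwa [inv_inv] at this)
        have e1 : h * (g * v * g⁻¹) = g * ((g⁻¹ * h * g) * v) * g⁻¹ := by group
        have e2 : g * v * g⁻¹ * h = g * (v * (g⁻¹ * h * g)) * g⁻¹ := by group
        rw [e1, e2, h1]
      rw [Subgroup.mem_normalizer_iff]
      intro v
      constructor
      · exact hconj g v
      · intro hv
        have := hconj g⁻¹ _ hv
        have e : g⁻¹ * (g * v * g⁻¹) * g⁻¹⁻¹ = v := by group
        rwa [e] at this
    have := Fact.mk hp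
    have hVp : IsPGroup (orderOf x) ↥V := by
      intro v
      refine ⟨1, ?_⟩
      rw [pow_one]
      apply Subtype.ext
      have := F5 x hx v ((hVmem v).mp v.2).1
      simpa using this
    have hVcop : (Nat.card V).Coprime (orderOf t) := by
      obtain ⟨n, hn⟩ := IsPGroup.iff_card.mp hVp
      rw [hn]
      apply Nat.Coprime.pow_left
      exact (Nat.coprime_primes hp hr).mpr (Ne.symm hto)
    have hap : t ^ orderOf t = 1 := pow_orderOf_eq_one t
    have hbp : t' ^ orderOf t = 1 := by rw [← hto']; exact pow_orderOf_eq_one t'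
    obtain ⟨v, hv, hv1, hcase⟩ := Cfsg.Agent.Helper23.exists_fixed_of_noncyclic hr hVcop hVbot
      (hVnorm t) (hVnorm t') hc hap hbp
    have hvD : v ∈ centralizer ({x} : Set H) := ((hVmem v).mp hv).1
    have hvo : orderOf v = orderOf x := by
      have := F5 x hx v hvD
      have h1 := orderOf_dvd_of_pow_eq_one this
      rcases (Nat.dvd_prime hp).mp h1 with h2 | h2
      · exact absurd (orderOf_eq_one_iff.mp h2) hv1
      · exact h2
    rcases hcase with hcase | ⟨k, -, hcase⟩
    · exact hto ((F4 t v ht1 hv1 hcase).trans hvo)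
    · have hs1 : t ^ k * t' ≠ 1 := by
        intro h
        apply hne
        have e : t' = (t ^ k)⁻¹ := eq_inv_of_mul_eq_one_right h
        apply R.St_eq_of_le ht1 ht'1
        rw [e, St_inv_eq]
        exact St_le_St_pow φ t k
      have hsC : t ^ k * t' ∈ centralizer ({t} : Set H) := by
        apply Subgroup.mul_mem _ _ ht'
        rw [Subgroup.mem_centralizer_singleton_iff]
        exact ((Commute.refl t).pow_left k).eq
      have hso : orderOf (t ^ k * t') = orderOf t := by
        have := F5 t ht1 _ hsC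
        have h1 := orderOf_dvd_of_pow_eq_one this
        rcases (Nat.dvd_prime hr).mp h1 with h2 | h2
        · exact absurd (orderOf_eq_one_iff.mp h2) hs1
        · exact h2
      exact hto (hso.symm.trans ((F4 _ v hs1 hv1 hcase).trans hvo))
  -- centralizers are self-normalizing
  have F7 : ∀ x : H, x ≠ 1 → normalizer ((centralizer ({x} : Set H) : Subgroup H) : Set H) =
      centralizer ({x} : Set H) := by
    intro x hx
    have hinv : ∀ m ∈ St φ x, ∀ l ∈ normalizer ((centralizer ({x} : Set H) : Subgroup H) : Set H),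
        φ m l ∈ normalizer ((centralizer ({x} : Set H) : Subgroup H) : Set H) := by
      intro m hm l hl
      rw [Subgroup.mem_normalizer_iff] at hl ⊢
      intro h
      obtain ⟨h', rfl⟩ := (φ m).surjective h
      rw [map_cent_of_mem hm h', ← map_inv, ← map_mul, ← map_mul, map_cent_of_mem hm]
      exact hl h'
    rcases R.eq_or_eq_top hx _ Subgroup.le_normalizer hinv with h1 | h1
    · exact h1
    · exact absurd (Subgroup.normalizer_eq_top_iff.mp h1) (F6 x hx)
  -- centralizers are Sylow subgroups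
  have F8 : ∀ (p : ℕ) [Fact p.Prime] (x : H), orderOf x = p →
      ∃ P : Sylow p H, (P : Subgroup H) = centralizer ({x} : Set H) := by
    intro p _ x hxo
    have hx : x ≠ 1 := by
      rintro rfl
      rw [orderOf_one] at hxo
      exact (Fact.out : p.Prime).one_lt.ne hxo
    have hPG : IsPGroup p (centralizer ({x} : Set H)) := by
      intro w
      refine ⟨1, ?_⟩
      rw [pow_one]
      apply Subtype.ext
      have := F5 x hx w w.2
      rw [hxo] at this
      simpa using this
    obtain ⟨P, hP⟩ := hPG.exists_le_sylow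
    refine ⟨P, ?_⟩
    by_contra hne
    obtain ⟨y, -, hy2, hy3⟩ := Cfsg.Agent.Helper35.exists_mem_normalizer_not_mem_of_isPGroup
      P.isPGroup' hP (Ne.symm hne)
    rw [F7 x hx] at hy2
    exact hy3 hy2
  -- centralizers are nonabelian
  have F9 : ∀ x : H, x ≠ 1 → ∃ a ∈ centralizer ({x} : Set H),
      ∃ b ∈ centralizer ({x} : Set H), a * b ≠ b * a := by
    intro x hx
    by_contra hcon
    have hab : ∀ a ∈ centralizer ({x} : Set H), ∀ b ∈ centralizer ({x} : Set H),
        a * b = b * a := by
      intro a ha b hb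
      by_contra hne
      exact hcon ⟨a, ha, b, hb, hne⟩
    obtain ⟨y, hy, hy1, hne⟩ := hnc x hx
    have hp := F3 x hx
    have := Fact.mk hp
    have hyo : orderOf y = orderOf x :=
      (F4 x y hx hy1 (Subgroup.mem_centralizer_singleton_iff.mp hy).symm).symm
    obtain ⟨P, hP⟩ := F8 (orderOf x) x rfl
    have hle : centralizer ({x} : Set H) ≤ centralizer ({y} : Set H) := by
      intro d hd
      rw [Subgroup.mem_centralizer_singleton_iff]
      exact hab d hd y hy
    have hPGy : IsPGroup (orderOf x) (centralizer ({y} : Set H)) := by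
      intro w
      refine ⟨1, ?_⟩
      rw [pow_one]
      apply Subtype.ext
      have := F5 y hy1 w w.2
      rw [hyo] at this
      simpa using this
    have hCy : centralizer ({y} : Set H) = centralizer ({x} : Set H) := by
      rw [← hP]
      exact P.is_maximal' hPGy (hP ▸ hle)
    let T : Subgroup Γ :=
      { carrier := {g | ∀ c : H, φ g c ∈ centralizer ({x} : Set H) ↔
          c ∈ centralizer ({x} : Set H)}
        mul_mem' := by
          intro a b ha hb c
          rw [map_mul, MulAut.mul_apply]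
          exact (ha (φ b c)).trans (hb c)
        one_mem' := by
          intro c
          rw [map_one, MulAut.one_apply]
        inv_mem' := by
          intro a ha c
          have h1 := ha (φ a⁻¹ c)
          have e : φ a (φ a⁻¹ c) = c := by
            rw [← MulAut.mul_apply, ← map_mul, mul_inv_cancel, map_one, MulAut.one_apply]
          rw [e] at h1
          exact h1.symm }
    have hTmem : ∀ g : Γ, g ∈ T ↔ ∀ c : H, φ g c ∈ centralizer ({x} : Set H) ↔
        c ∈ centralizer ({x} : Set H) := fun g => Iff.rfl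
    have hxT : St φ x ≤ T := fun m hm => (hTmem m).mpr (fun c => map_cent_of_mem hm c)
    have hyT : St φ y ≤ T := by
      intro m hm
      rw [hTmem]
      intro c
      rw [← hCy]
      exact map_cent_of_mem hm c
    rcases (R.max x hx).le_iff.mp hxT with h1 | h1
    · apply F6 x hx
      constructor
      intro c hc h
      obtain ⟨γ, hγ⟩ := R.inn h
      have hγT : γ ∈ T := h1 ▸ Subgroup.mem_top γ
      have := ((hTmem γ).mp hγT c).mpr hc
      rwa [hγ, MulAut.conj_apply] at this
    · apply hne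
      rw [h1] at hyT
      exact (R.St_eq_of_le hy1 hx hyT).symm
  -- counting
  have hno2 : ¬ 2 ∣ Nat.card H := by
    intro h2
    have : Fact (Nat.Prime 2) := ⟨Nat.prime_two⟩
    obtain ⟨x, hxo⟩ := exists_prime_orderOf_dvd_card' (G := H) 2 h2
    have hx1 : x ≠ 1 := by
      rintro rfl
      rw [orderOf_one] at hxo
      omega
    obtain ⟨a, ha, b, hb, hab⟩ := F9 x hx1
    have hsq : ∀ w ∈ centralizer ({x} : Set H), w * w = 1 := by
      intro w hw
      have := F5 x hx1 w hw
      rwa [hxo, sq] at this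
    apply hab
    have h1 := hsq a ha
    have h2' := hsq b hb
    have h3 := hsq (a * b) (Subgroup.mul_mem _ ha hb)
    have e : a * b = (a * b)⁻¹ := eq_inv_of_mul_eq_one_left h3
    have ea : a = a⁻¹ := eq_inv_of_mul_eq_one_left h1
    have eb : b = b⁻¹ := eq_inv_of_mul_eq_one_left h2'
    rw [e, mul_inv_rev, ← ea, ← eb]
  apply false_of_prime_orders_of_count F3 hno2
  intro p hp
  have := Fact.mk hp
  apply card_order_mul_sq_le_of_sylow_cent p (fun x hxo => F8 p x hxo)
  intro x hxo
  apply F9
  rintro rfl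
  rw [orderOf_one] at hxo
  exact hp.one_lt.ne hxo

/-- **Main structure theorem** of the relative maximal-centralizer situation: `H` is a
Frobenius group with elementary abelian kernel and complement of prime order. -/
theorem exists_frob [Finite H] [Nontrivial H] :
    ∃ (Q K : Subgroup H) (p : ℕ), p.Prime ∧ Cfsg.IsFrobeniusComplement Q ∧
      (Nat.card Q).Prime ∧ K.Normal ∧ (K : Set H) = Cfsg.frobeniusKernel Q ∧
      Cfsg.IsElementaryAbelian p K := by
  have hmain : ∃ t : H, t ≠ 1 ∧ ¬ (St φ t).Normal ∧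
      ∀ y ∈ centralizer ({t} : Set H), y ≠ 1 → St φ y = St φ t := by
    by_cases h1 : ∃ x : H, x ≠ 1 ∧ (St φ x).Normal
    · obtain ⟨x, hx, hn⟩ := h1
      exact R.exists_comp_of_normal hx hn
    · by_contra hcon
      apply R.false_of_noncomp
      intro x hx
      by_contra hx'
      apply hcon
      refine ⟨x, hx, fun hn => h1 ⟨x, hx, hn⟩, fun y hy hy1 => ?_⟩
      by_contra hne
      exact hx' ⟨y, hy, hy1, hne⟩
  obtain ⟨t, ht1, hnn, hcomp⟩ := hmain
  have hF := R.isFrob_of_comp ht1 hnn hcomp
  obtain ⟨K, p, hp, hq, hKn, hKset, hel⟩ := R.frob_structure ht1 hcomp hF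
  exact ⟨centralizer ({t} : Set H), K, p, hp, hF, hq, hKn, hKset, hel⟩

end RelMax

end RelCent

end Cfsg.Agent.Helper68
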