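/-
Helper library of seat helper68: coprime action on a Z-group (all Sylow subgroups cyclic),
internal version (`A`, `K` subgroups of a finite group, `A` normalising `K`).
-/
import Cfsg.Agent.Helper35.CoprimeAbelian

set_option autoImplicit false

namespace Cfsg.Agent.Helper68

open Subgroup
open scoped commutatorElement Pointwise

universe u
variable {Γ : Type u} [Group Γ]

/-- In a finite cyclic group, an element killed by `orderOf x` lies in `zpowers x`. -/
theorem mem_zpowers_of_pow_orderOf_eq_one {H : Type*} [Group H] [Finite H] [IsCyclic H]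
    (x z : H) (h : z ^ orderOf x = 1) : z ∈ zpowers x := by
  classical
  have := Fintype.ofFinite H
  have hpos : 0 < orderOf x := orderOf_pos x
  have h1 : (Finset.univ.filter (fun a : H => a ^ orderOf x = 1)).card ≤ orderOf x :=
    IsCyclic.card_pow_eq_one_le hpos
  by_contra hz
  have h2 : insert z ((Finset.range (orderOf x)).image (fun i => x ^ i)) ⊆
      Finset.univ.filter (fun a : H => a ^ orderOf x = 1) := by
    intro a ha
    rw [Finset.mem_insert] at ha
    rw [Finset.mem_filter]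
    refine ⟨Finset.mem_univ _, ?_⟩
    rcases ha with rfl | ha
    · exact h
    · obtain ⟨i, -, rfl⟩ := Finset.mem_image.mp ha
      rw [← pow_mul, mul_comm, pow_mul, pow_orderOf_eq_one, one_pow]
  have h3 : (insert z ((Finset.range (orderOf x)).image (fun i => x ^ i))).card
      = orderOf x + 1 := by
    rw [Finset.card_insert_of_notMem, Finset.card_image_of_injOn, Finset.card_range]
    · intro i hi j hj hij
      exact pow_injOn_Iio_orderOf (by simpa using hi) (by simpa using hj) hij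
    · intro hmem
      obtain ⟨i, -, rfl⟩ := Finset.mem_image.mp hmem
      exact hz (Subgroup.pow_mem _ (Subgroup.mem_zpowers x) i)
  have := Finset.card_le_card h2
  omega

/-- Two elements normalising a cyclic subgroup `D` have a commutator centralising `D`. -/
theorem commutator_mem_centralizer_of_isCyclic {D : Subgroup Γ} [hD : IsCyclic D] {x y : Γ}
    (hx : x ∈ normalizer (D : Set Γ)) (hy : y ∈ normalizer (D : Set Γ)) :
    ⁅x, y⁆ ∈ centralizer (D : Set Γ) := by
  obtain ⟨⟨d, hdD⟩, hd⟩ := hD.exists_generator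
  have hgen : ∀ z ∈ D, ∃ k : ℤ, d ^ k = z := by
    intro z hz
    obtain ⟨k, hk⟩ := Subgroup.mem_zpowers_iff.mp (hd ⟨z, hz⟩)
    exact ⟨k, by simpa using congrArg (fun t : D => (t : Γ)) hk⟩
  obtain ⟨i, hi⟩ := hgen (x⁻¹ * d * x) (by
    have := (Subgroup.mem_normalizer_iff.mp (Subgroup.inv_mem _ hx) d).mp hdD
    simpa using this)
  obtain ⟨j, hj⟩ := hgen (y⁻¹ * d * y) (by
    have := (Subgroup.mem_normalizer_iff.mp (Subgroup.inv_mem _ hy) d).mp hdD
    simpa using this)
  have hconj : ∀ (w : Γ) (k : ℤ), w⁻¹ * d ^ k * w = (w⁻¹ * d * w) ^ k := by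
    intro w k
    have := conj_zpow (a := w⁻¹) (b := d) (i := k)
    rw [inv_inv] at this
    exact this.symm
  have key : (x * y)⁻¹ * d * (x * y) = (y * x)⁻¹ * d * (y * x) := by
    have e1 : (x * y)⁻¹ * d * (x * y) = y⁻¹ * (x⁻¹ * d * x) * y := by group
    have e2 : (y * x)⁻¹ * d * (y * x) = x⁻¹ * (y⁻¹ * d * y) * x := by group
    rw [e1, e2, ← hi, ← hj, hconj, hconj, ← hi, ← hj, ← zpow_mul, ← zpow_mul, mul_comm]
  have hcd : Commute d ⁅x, y⁆ := by
    have hc : ⁅x, y⁆ = (x * y) * (y * x)⁻¹ := by rw [commutatorElement_def]; group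
    rw [hc]
    show d * ((x * y) * (y * x)⁻¹) = ((x * y) * (y * x)⁻¹) * d
    calc d * ((x * y) * (y * x)⁻¹) = (x * y) * ((x * y)⁻¹ * d * (x * y)) * (y * x)⁻¹ := by group
      _ = (x * y) * ((y * x)⁻¹ * d * (y * x)) * (y * x)⁻¹ := by rw [key]
      _ = ((x * y) * (y * x)⁻¹) * d := by group
  rw [Subgroup.mem_centralizer_iff]
  intro z hz
  obtain ⟨k, rfl⟩ := hgen z hz
  exact (hcd.zpow_left k).eq

/-- `K` normalises `⁅K, A⁆`. -/
theorem le_normalizer_commutator_left (A K : Subgroup Γ) :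
    K ≤ normalizer ((⁅K, A⁆ : Subgroup Γ) : Set Γ) := by
  have key : ∀ k ∈ K, ∀ n ∈ (⁅K, A⁆ : Subgroup Γ), k * n * k⁻¹ ∈ (⁅K, A⁆ : Subgroup Γ) := by
    intro k hk n hn
    rw [Subgroup.commutator_def] at hn
    induction hn using Subgroup.closure_induction with
    | mem g hg =>
      obtain ⟨k₁, hk₁, a, ha, rfl⟩ := hg
      have e : k * ⁅k₁, a⁆ * k⁻¹ = ⁅k * k₁, a⁆ * ⁅k, a⁆⁻¹ := by
        simp only [commutatorElement_def]; group
      rw [e]
      exact Subgroup.mul_mem _ (Subgroup.commutator_mem_commutator (K.mul_mem hk hk₁) ha)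
        (Subgroup.inv_mem _ (Subgroup.commutator_mem_commutator hk ha))
    | one => simp
    | mul a b _ _ iha ihb =>
      have e : k * (a * b) * k⁻¹ = (k * a * k⁻¹) * (k * b * k⁻¹) := by group
      rw [e]; exact Subgroup.mul_mem _ iha ihb
    | inv a _ iha =>
      have e : k * a⁻¹ * k⁻¹ = (k * a * k⁻¹)⁻¹ := by group
      rw [e]; exact Subgroup.inv_mem _ iha
  intro k hk
  rw [Subgroup.mem_normalizer_iff]
  intro n
  constructor
  · exact key k hk n
  · intro h
    have := key k⁻¹ (K.inv_mem hk) _ h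
    simpa [mul_assoc] using this

/-- **Coprime action on a Z-group** (internal form). -/
theorem zgroup_coprime_internal [Finite Γ] {A K : Subgroup Γ} [IsZGroup K]
    (hAK : A ≤ normalizer (K : Set Γ)) (hcop : (Nat.card A).Coprime (Nat.card K)) :
    IsCyclic (⁅K, A⁆ : Subgroup Γ) ∧ (⁅K, A⁆ : Subgroup Γ) ⊓ centralizer (A : Set Γ) = ⊥ ∧
    (∀ k ∈ K, ∃ n ∈ (⁅K, A⁆ : Subgroup Γ), ∃ c ∈ K ⊓ centralizer (A : Set Γ), k = n * c) ∧
    (Nat.card (K ⊓ centralizer (A : Set Γ) : Subgroup Γ)).Coprime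
      (Nat.card (⁅K, A⁆ : Subgroup Γ)) := by
  have hsolv : Group.IsSolvable A ∨ Group.IsSolvable K := Or.inr inferInstance
  have hLL : (⁅⁅K, A⁆, A⁆ : Subgroup Γ) = ⁅K, A⁆ :=
    Helper35.commutator_commutator_eq_of_coprime hAK hcop hsolv
  have hR1 : ∀ k ∈ K, ∃ n ∈ (⁅K, A⁆ : Subgroup Γ), ∃ c ∈ K ⊓ centralizer (A : Set Γ),
      k = n * c := fun k hk => Helper35.exists_commutator_mul_fixed hAK hcop hsolv hk
  have hKL : K ≤ normalizer ((⁅K, A⁆ : Subgroup Γ) : Set Γ) := le_normalizer_commutator_left A K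
  generalize hL : (⁅K, A⁆ : Subgroup Γ) = L at *
  have hLK : L ≤ K := hL ▸ Helper35.commutator_le_of_le_normalizer hAK
  have hAL : A ≤ normalizer (L : Set Γ) := hL ▸ Helper35.le_normalizer_commutator hAK
  have : IsZGroup L :=
    IsZGroup.of_injective (f := Subgroup.inclusion hLK) (Subgroup.inclusion_injective hLK)
  have hDc : IsCyclic (⁅L, L⁆ : Subgroup Γ) := by
    have h1 : IsCyclic (commutator L) := IsZGroup.isCyclic_commutator L
    rw [← Subgroup.map_subtype_commutator L]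
    exact isCyclic_of_surjective (L.subtype.subgroupMap (commutator L))
      (MonoidHom.subgroupMap_surjective _ _)
  have hnorm : normalizer (L : Set Γ) ≤ normalizer ((⁅L, L⁆ : Subgroup Γ) : Set Γ) := by
    intro x hx
    rw [Helper35.mem_normalizer_iff_conj_smul_eq] at hx ⊢
    have h1 : MulAut.conj x • (⁅L, L⁆ : Subgroup Γ) = ⁅MulAut.conj x • L, MulAut.conj x • L⁆ :=
      Subgroup.map_commutator L L (MulAut.conj x).toMonoidHom
    rw [h1, hx]
  have hLD : L ≤ centralizer ((⁅L, L⁆ : Subgroup Γ) : Set Γ) := by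
    have : (⁅L, A⁆ : Subgroup Γ) ≤ centralizer ((⁅L, L⁆ : Subgroup Γ) : Set Γ) := by
      rw [Subgroup.commutator_le]
      intro l hl a ha
      exact commutator_mem_centralizer_of_isCyclic (hnorm (Subgroup.le_normalizer hl))
        (hnorm (hAL ha))
    rwa [hLL] at this
  have : Group.IsNilpotent L := by
    rw [Subgroup.nilpotent_iff_lowerCentralSeries]
    refine ⟨2, ?_⟩
    show (⁅⁅(⊤ : Subgroup L), ⊤⁆, ⊤⁆ : Subgroup L) = ⊥
    rw [Subgroup.commutator_eq_bot_iff_le_centralizer]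
    intro z hz
    rw [Subgroup.mem_centralizer_iff]
    intro w _
    have hzD : (z : Γ) ∈ (⁅L, L⁆ : Subgroup Γ) := by
      have : (z : Γ) ∈ (commutator L).map L.subtype := ⟨z, hz, rfl⟩
      rwa [Subgroup.map_subtype_commutator] at this
    have := (Subgroup.mem_centralizer_iff.mp (hLD w.2)) (z : Γ) hzD
    exact Subtype.ext this.symm
  have hLc : IsCyclic L := inferInstance
  have hcomm : ∀ x ∈ L, ∀ y ∈ L, x * y = y * x := by
    intro x hx y hy
    let _ := IsCyclic.commGroup (α := L)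
    exact congrArg (fun t : L => (t : Γ)) (mul_comm (⟨x, hx⟩ : L) ⟨y, hy⟩)
  have hLC : L ⊓ centralizer (A : Set Γ) = ⊥ := by
    have := Helper35.commutator_inf_centralizer_eq_bot_of_comm hAL
      (Nat.Coprime.coprime_dvd_right (Subgroup.card_dvd_of_le hLK) hcop) hcomm
    rwa [hLL] at this
  refine ⟨hLc, hLC, hR1, ?_⟩
  by_contra hnc
  obtain ⟨p, hp, hpC, hpL⟩ := Nat.Prime.not_coprime_iff_dvd.mp hnc
  have := Fact.mk hp
  obtain ⟨⟨y, hyC⟩, hyo⟩ := exists_prime_orderOf_dvd_card' p hpC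
  obtain ⟨⟨x, hxL⟩, hxo⟩ := exists_prime_orderOf_dvd_card' p hpL
  rw [Subgroup.orderOf_mk] at hyo hxo
  have hyK : y ∈ K := hyC.1
  have hconj : ∀ z ∈ K, ∀ n ∈ zpowers x, z * n * z⁻¹ ∈ zpowers x := by
    intro z hz n hn
    obtain ⟨k, rfl⟩ := Subgroup.mem_zpowers_iff.mp hn
    have hzxL : z * x * z⁻¹ ∈ L := (Subgroup.mem_normalizer_iff.mp (hKL hz) x).mp hxL
    have h0 : z * x * z⁻¹ ∈ zpowers x := by
      have h1 := mem_zpowers_of_pow_orderOf_eq_one (⟨x, hxL⟩ : L) ⟨z * x * z⁻¹, hzxL⟩ (by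
        rw [Subgroup.orderOf_mk]
        apply Subtype.ext
        show (z * x * z⁻¹) ^ orderOf x = 1
        rw [conj_pow, pow_orderOf_eq_one]; group)
      obtain ⟨m, hm⟩ := Subgroup.mem_zpowers_iff.mp h1
      exact Subgroup.mem_zpowers_iff.mpr ⟨m, by simpa using congrArg (fun t : L => (t : Γ)) hm⟩
    rw [← conj_zpow]
    exact Subgroup.zpow_mem _ h0 k
  have hyN : zpowers y ≤ normalizer ((zpowers x : Subgroup Γ) : Set Γ) := by
    rw [Subgroup.zpowers_le, Subgroup.mem_normalizer_iff]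
    intro n
    constructor
    · exact hconj y hyK n
    · intro h
      have := hconj y⁻¹ (K.inv_mem hyK) _ h
      simpa [mul_assoc] using this
  have hxP : IsPGroup p (zpowers x) :=
    IsPGroup.of_card (n := 1) (by rw [Nat.card_zpowers, hxo, pow_one])
  have hyP : IsPGroup p (zpowers y) :=
    IsPGroup.of_card (n := 1) (by rw [Nat.card_zpowers, hyo, pow_one])
  have hHP : IsPGroup p (zpowers x ⊔ zpowers y : Subgroup Γ) :=
    IsPGroup.to_sup_of_normal_left' hxP hyP hyN
  have hHK : zpowers x ⊔ zpowers y ≤ K :=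
    sup_le (Subgroup.zpowers_le.mpr (hLK hxL)) (Subgroup.zpowers_le.mpr hyK)
  generalize hH : zpowers x ⊔ zpowers y = H at hHP hHK
  have : IsZGroup H :=
    IsZGroup.of_injective (f := Subgroup.inclusion hHK) (Subgroup.inclusion_injective hHK)
  have : Group.IsNilpotent H := hHP.isNilpotent
  have : IsCyclic H := inferInstance
  have hxH : x ∈ H := hH ▸ (le_sup_left : zpowers x ≤ zpowers x ⊔ zpowers y) (Subgroup.mem_zpowers x)
  have hyH : y ∈ H := hH ▸ (le_sup_right : zpowers y ≤ zpowers x ⊔ zpowers y) (Subgroup.mem_zpowers y)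
  have h1 := mem_zpowers_of_pow_orderOf_eq_one (⟨x, hxH⟩ : H) ⟨y, hyH⟩ (by
    rw [Subgroup.orderOf_mk, hxo]
    apply Subtype.ext
    show y ^ p = 1
    rw [← hyo, pow_orderOf_eq_one])
  obtain ⟨m, hm⟩ := Subgroup.mem_zpowers_iff.mp h1
  have hyx : x ^ m = y := by simpa using congrArg (fun t : H => (t : Γ)) hm
  have hyL : y ∈ L := hyx ▸ L.zpow_mem hxL m
  have hy1 : y ∈ L ⊓ centralizer (A : Set Γ) := ⟨hyL, hyC.2⟩
  rw [hLC, Subgroup.mem_bot] at hy1
  rw [hy1, orderOf_one] at hyo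
  exact hp.one_lt.ne hyo

end Cfsg.Agent.Helper68
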